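import Cfsg.Agent.Nodes.WittModel

/-!
# Diagonal elements of a Witt frame (S4842, helper644)

`H` bilinear (`σ = 1`), `Fr` a Witt frame with anisotropic part `V0`.

* `dg Fr s s0` : `b x ↦ s x • b x`, `w ↦ s0 • w` on `V0`; `dg_mul`, `ext_b`, `conj_dg`;
* `cc e x` : the cocharacter `e` at `x`; `sE i e` the simple reflection, `sE_eq`;
* `nX_dg`, `nZ_dg` : the coroot elements are products of root elements.
-/

set_option autoImplicit false
set_option linter.unusedSectionVars false

namespace Cfsg.Agent.H644.OZ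

open Cfsg.Agent.Nodes.TypeC Cfsg.Agent.Nodes.WittRoot Cfsg.Agent.Nodes.WittRGD
open Cfsg.Agent.TitsThree Cfsg.Agent.TitsThree.Siegel Cfsg.Agent.TitsThree.WittFrame Cfsg.Agent.TitsThree.WittWeyl

variable {F : Type*} [Field F] {V : Type*} [AddCommGroup V] [Module F V] {H : HForm F V} {n : ℕ}
  (Fr : Frame H (Fin n))

/-- the coordinate of `b x` -/
def cf (x : Fin n × Bool) : V →ₗ[F] F where
  toFun v := H.h v (Fr.b (neg x)) * (Fr.η (neg x))⁻¹
  map_add' v w := by rw [H.add_left, add_mul]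
  map_smul' c v := by rw [H.smul_left, mul_assoc]; rfl

theorem cf_apply (x : Fin n × Bool) (v : V) : cf Fr x v = H.h v (Fr.b (neg x)) * (Fr.η (neg x))⁻¹ := rfl

theorem cf_b (x y : Fin n × Bool) : cf Fr x (Fr.b y) = if y = x then 1 else 0 := by
  rw [cf_apply]
  by_cases h : y = x
  · subst h
    rw [if_pos rfl, Fr.hb_self_neg, mul_inv_cancel₀ (Fr.η_ne _)]
  · rw [if_neg h, Fr.hb_ne, zero_mul]
    intro e
    apply h
    have := congrArg neg e
    rw [neg_neg, neg_neg] at this
    exact this.symm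

theorem cf_V0 (x : Fin n × Bool) {w : V} (hw : w ∈ Fr.V0) : cf Fr x w = 0 := by
  rw [cf_apply, Fr.h0' _ hw, zero_mul]

/-- diagonal maps -/
def dgL (s : Fin n × Bool → F) (s0 : F) : V →ₗ[F] V :=
  s0 • LinearMap.id + ∑ x, (s x - s0) • (cf Fr x).smulRight (Fr.b x)

theorem dgL_apply (s : Fin n × Bool → F) (s0 : F) (v : V) :
    dgL Fr s s0 v = s0 • v + ∑ x, ((s x - s0) * cf Fr x v) • Fr.b x := by
  unfold dgL
  rw [LinearMap.add_apply, LinearMap.smul_apply, LinearMap.id_apply, LinearMap.sum_apply]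
  congr 1
  refine Finset.sum_congr rfl fun x _ => ?_
  rw [LinearMap.smul_apply, LinearMap.smulRight_apply, smul_smul]

theorem dgL_b (s : Fin n × Bool → F) (s0 : F) (x : Fin n × Bool) : dgL Fr s s0 (Fr.b x) = s x • Fr.b x := by
  rw [dgL_apply, Finset.sum_eq_single x]
  · rw [cf_b, if_pos rfl, mul_one, ← add_smul, add_sub_cancel]
  · intro y _ hy
    rw [cf_b, if_neg hy.symm, mul_zero, zero_smul]
  · intro h
    exact absurd (Finset.mem_univ x) h

theorem dgL_V0 (s : Fin n × Bool → F) (s0 : F) {w : V} (hw : w ∈ Fr.V0) : dgL Fr s s0 w = s0 • w := by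
  rw [dgL_apply, Finset.sum_eq_zero, add_zero]
  intro x _
  rw [cf_V0 Fr x hw, mul_zero, zero_smul]

theorem cf_dgL (s : Fin n × Bool → F) (s0 : F) (x : Fin n × Bool) (v : V) :
    cf Fr x (dgL Fr s s0 v) = s x * cf Fr x v := by
  rw [dgL_apply, map_add, map_smul, map_sum, Finset.sum_eq_single x]
  · rw [map_smul, cf_b, if_pos rfl, smul_eq_mul, smul_eq_mul]
    ring
  · intro y _ hy
    rw [map_smul, cf_b, if_neg hy, smul_zero]
  · intro h
    exact absurd (Finset.mem_univ x) h

theorem dgL_dgL (s s' : Fin n × Bool → F) (s0 s0' : F) (v : V) :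
    dgL Fr s s0 (dgL Fr s' s0' v) = dgL Fr (fun x => s x * s' x) (s0 * s0') v := by
  rw [dgL_apply, dgL_apply Fr (fun x => s x * s' x)]
  simp only [cf_dgL]
  rw [dgL_apply, smul_add, smul_smul, Finset.smul_sum, add_assoc, ← Finset.sum_add_distrib]
  congr 1
  refine Finset.sum_congr rfl fun x _ => ?_
  rw [smul_smul, ← add_smul]
  congr 1
  ring

theorem dgL_one (v : V) : dgL Fr (fun _ => 1) 1 v = v := by
  rw [dgL_apply, one_smul, Finset.sum_eq_zero, add_zero]
  intro x _
  rw [sub_self, zero_mul, zero_smul]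

/-- **diagonal elements** -/
def dg (s : Fin n × Bool → Fˣ) (s0 : Fˣ) : V ≃ₗ[F] V where
  toFun := dgL Fr (fun x => (s x : F)) s0
  map_add' := (dgL Fr (fun x => (s x : F)) s0).map_add
  map_smul' := (dgL Fr (fun x => (s x : F)) s0).map_smul
  invFun := dgL Fr (fun x => ((s x)⁻¹ : Fˣ)) (s0⁻¹ : Fˣ)
  left_inv v := by
    change dgL Fr _ _ (dgL Fr _ _ v) = v
    rw [dgL_dgL]
    simp only [Units.inv_mul]
    exact dgL_one Fr v
  right_inv v := by
    change dgL Fr _ _ (dgL Fr _ _ v) = v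
    rw [dgL_dgL]
    simp only [Units.mul_inv]
    exact dgL_one Fr v

theorem dg_apply (s : Fin n × Bool → Fˣ) (s0 : Fˣ) (v : V) :
    dg Fr s s0 v = (s0 : F) • v + ∑ x, (((s x : F) - s0) * cf Fr x v) • Fr.b x := dgL_apply Fr _ _ v

theorem dg_b (s : Fin n × Bool → Fˣ) (s0 : Fˣ) (x : Fin n × Bool) : dg Fr s s0 (Fr.b x) = (s x : F) • Fr.b x :=
  dgL_b Fr _ _ x

theorem dg_V0 (s : Fin n × Bool → Fˣ) (s0 : Fˣ) {w : V} (hw : w ∈ Fr.V0) : dg Fr s s0 w = (s0 : F) • w :=
  dgL_V0 Fr _ _ hw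

theorem cf_dg (s : Fin n × Bool → Fˣ) (s0 : Fˣ) (x : Fin n × Bool) (v : V) :
    cf Fr x (dg Fr s s0 v) = (s x : F) * cf Fr x v := cf_dgL Fr _ _ x v

theorem dg_mul (s s' : Fin n × Bool → Fˣ) (s0 s0' : Fˣ) : dg Fr (s * s') (s0 * s0') = dg Fr s s0 * dg Fr s' s0' := by
  refine LinearEquiv.ext fun v => ?_
  exact (dgL_dgL Fr (fun x => (s x : F)) (fun x => (s' x : F)) s0 s0' v).symm

theorem dg_one : dg Fr 1 1 = 1 := LinearEquiv.ext fun v => dgL_one Fr v

theorem dg_inv (s : Fin n × Bool → Fˣ) (s0 : Fˣ) : dg Fr s⁻¹ s0⁻¹ = (dg Fr s s0)⁻¹ := by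
  rw [eq_inv_iff_mul_eq_one, ← dg_mul, inv_mul_cancel, inv_mul_cancel, dg_one]

theorem mono_dg (s : Fin n × Bool → Fˣ) (s0 : Fˣ) : Mono Fr (dg Fr s s0) id := fun x =>
  ⟨s x, (s x).ne_zero, dg_b Fr s s0 x⟩

variable {Fr} in
/-- two linear automorphisms which agree on the frame and on `V0` are equal -/
theorem ext_b (hV0 : ∀ v, (∀ x, H.h v (Fr.b x) = 0) → v ∈ Fr.V0) {g g' : V ≃ₗ[F] V}
    (hb : ∀ x, g (Fr.b x) = g' (Fr.b x)) (h0 : ∀ w ∈ Fr.V0, g w = g' w) : g = g' := by
  refine LinearEquiv.ext fun v => ?_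
  have hw : v - ∑ x, cf Fr x v • Fr.b x ∈ Fr.V0 := by
    apply hV0
    intro y
    have h1 : H.h (∑ x, cf Fr x v • Fr.b x) (Fr.b y) = H.h v (Fr.b y) := by
      have h2 : ∀ t : Finset (Fin n × Bool), H.h (∑ x ∈ t, cf Fr x v • Fr.b x) (Fr.b y) =
          ∑ x ∈ t, cf Fr x v * H.h (Fr.b x) (Fr.b y) := by
        intro t
        induction t using Finset.induction_on with
        | empty => rw [Finset.sum_empty, Finset.sum_empty, H.zero_left]
        | insert a t ha ih => rw [Finset.sum_insert ha, Finset.sum_insert ha, H.add_left, H.smul_left, ih]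
      rw [h2, Finset.sum_eq_single (neg y)]
      · rw [Fr.hb_neg_self, cf_apply, neg_neg, mul_assoc, inv_mul_cancel₀ (Fr.η_ne y), mul_one]
      · intro x _ hx
        rw [Fr.hb_ne, mul_zero]
        intro e
        apply hx
        rw [e, neg_neg]
      · intro h
        exact absurd (Finset.mem_univ _) h
    rw [H.sub_left, h1, sub_self]
  have h1 := h0 _ hw
  rw [map_sub, map_sub, map_sum, map_sum] at h1
  have h2 : ∑ x, g (cf Fr x v • Fr.b x) = ∑ x, g' (cf Fr x v • Fr.b x) :=
    Finset.sum_congr rfl fun x _ => by rw [map_smul, map_smul, hb]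
  rw [h2] at h1
  exact sub_left_injective h1

variable {Fr} in
/-- conjugation by a monomial element -/
theorem conj_dg (hV0 : ∀ v, (∀ x, H.h v (Fr.b x) = 0) → v ∈ Fr.V0) {k : V ≃ₗ[F] V} {π : Fin n × Bool → Fin n × Bool}
    (hk : Mono Fr k π) (hk0 : ∀ w ∈ Fr.V0, k w ∈ Fr.V0) (s : Fin n × Bool → Fˣ) (s0 : Fˣ) :
    k⁻¹ * dg Fr s s0 * k = dg Fr (fun x => s (π x)) s0 := by
  have h1 : dg Fr s s0 * k = k * dg Fr (fun x => s (π x)) s0 := by
    refine ext_b hV0 (fun x => ?_) fun w hw => ?_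
    · obtain ⟨l, -, e⟩ := hk x
      rw [mul_apply', mul_apply', e, map_smul, dg_b, dg_b, map_smul, e, smul_smul, smul_smul, mul_comm]
    · rw [mul_apply', mul_apply', dg_V0 Fr _ _ hw, dg_V0 Fr _ _ (hk0 w hw), map_smul]
  rw [mul_assoc, h1, inv_mul_cancel_left]

/-! ### Cocharacters -/

/-- `b (k, +) ↦ l k`, `b (k, -) ↦ (l k)⁻¹` -/
def lam (l : Fin n → Fˣ) : Fin n × Bool → Fˣ := fun y => if y.2 then l y.1 else (l y.1)⁻¹

theorem lam_true (l : Fin n → Fˣ) (k : Fin n) : lam l (k, true) = l k := rfl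

theorem lam_false (l : Fin n → Fˣ) (k : Fin n) : lam l (k, false) = (l k)⁻¹ := rfl

theorem lam_mul (l l' : Fin n → Fˣ) : lam (l * l') = lam l * lam l' := by
  funext y
  obtain ⟨k, b⟩ := y
  cases b
  · show (l k * l' k)⁻¹ = (l k)⁻¹ * (l' k)⁻¹
    rw [mul_inv]
  · rfl

theorem lam_one : lam (1 : Fin n → Fˣ) = 1 := by
  funext y
  unfold lam
  split_ifs <;> simp

theorem lam_inv (l : Fin n → Fˣ) : lam l⁻¹ = (lam l)⁻¹ := by
  rw [eq_inv_iff_mul_eq_one, ← lam_mul, inv_mul_cancel, lam_one]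

/-- the cocharacter `e` -/
def cc (e : Fin n → ℤ) (x : Fˣ) : Fin n × Bool → Fˣ := lam fun k => x ^ e k

theorem cc_add (e e' : Fin n → ℤ) (x : Fˣ) : cc (e + e') x = cc e x * cc e' x := by
  unfold cc
  rw [← lam_mul]
  congr 1
  funext k
  rw [Pi.add_apply, Pi.mul_apply, zpow_add]

theorem cc_mul (e : Fin n → ℤ) (x y : Fˣ) : cc e (x * y) = cc e x * cc e y := by
  unfold cc
  rw [← lam_mul]
  congr 1
  funext k
  rw [Pi.mul_apply, mul_zpow]

theorem cc_one (e : Fin n → ℤ) : cc e (1 : Fˣ) = 1 := by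
  unfold cc
  simp only [one_zpow]
  exact lam_one

theorem cc_zero (x : Fˣ) : cc (0 : Fin n → ℤ) x = 1 := by
  unfold cc
  simp only [Pi.zero_apply, zpow_zero]
  exact lam_one

theorem cc_neg (e : Fin n → ℤ) (x : Fˣ) : cc (-e) x = (cc e x)⁻¹ := by
  rw [eq_inv_iff_mul_eq_one, ← cc_add, neg_add_cancel, cc_zero]

theorem cc_smul (c : ℤ) (e : Fin n → ℤ) (x : Fˣ) : cc (c • e) x = (cc e x) ^ c := by
  funext y
  rw [Pi.pow_apply]
  obtain ⟨k, b⟩ := y
  cases b
  · show (x ^ (c * e k))⁻¹ = ((x ^ e k)⁻¹) ^ c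
    rw [mul_comm, zpow_mul, inv_zpow]
  · show x ^ (c * e k) = (x ^ e k) ^ c
    rw [mul_comm, zpow_mul]

/-- the simple reflection -/
def sE (i : Fin n) (e : Fin n → ℤ) : Fin n → ℤ := fun k =>
  if h : (i : ℕ) + 1 < n then (if k = i then e ⟨i + 1, h⟩ else if k = ⟨i + 1, h⟩ then e i else e k)
  else (if k = i then -e k else e k)

theorem cc_sg (i : Fin n) (e : Fin n → ℤ) (x : Fˣ) : (fun y => cc e x (sg i y)) = cc (sE i e) x := by
  funext y
  obtain ⟨k, b⟩ := y
  unfold cc lam sg sE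
  by_cases h : (i : ℕ) + 1 < n
  · simp only [dif_pos h]
    by_cases h1 : k = i
    · simp only [h1, if_true]
    · by_cases h2 : k = ⟨i + 1, h⟩
      · simp only [h1, h2, if_false, if_true]
        have h3 : (⟨(i : ℕ) + 1, h⟩ : Fin n) ≠ i := by simp [Fin.ext_iff]
        simp only [h3, if_false]
      · simp only [h1, h2, if_false]
  · simp only [dif_neg h]
    by_cases h1 : k = i
    · simp only [h1, if_true]
      cases b
      · simp
      · simp
    · simp only [h1, if_false]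

/-- the coroots of type `B` -/
def co (j : Fin n) : Fin n → ℤ := fun k =>
  if k = j then (if (j : ℕ) + 1 = n then 2 else 1) else if (k : ℕ) = j + 1 then -1 else 0

/-- minus the fundamental coweights of type `B` -/
def cw (j : Fin n) : Fin n → ℤ := fun k => if (k : ℕ) ≤ j then -1 else 0

theorem sE_cw (i j : Fin n) : sE i (cw j) = cw j + (if i = j then co j else 0) := by
  funext k
  have hi := i.2
  have hj := j.2
  have hk := k.2
  unfold sE cw co
  by_cases h : (i : ℕ) + 1 < n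
  · simp only [dif_pos h, Pi.add_apply]
    by_cases h1 : k = i
    · subst h1
      by_cases h2 : k = j
      · subst h2
        simp only [if_true]
        split_ifs <;> omega
      · have h2' : (k : ℕ) ≠ j := fun h => h2 (Fin.ext h)
        simp only [if_true, if_neg h2, Pi.zero_apply]
        split_ifs <;> omega
    · have h1' : (k : ℕ) ≠ i := fun h => h1 (Fin.ext h)
      by_cases h3 : k = ⟨i + 1, h⟩
      · have h3' : (k : ℕ) = i + 1 := congrArg Fin.val h3
        by_cases h2 : i = j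
        · subst h2
          simp only [if_neg h1, if_pos h3, if_true]
          split_ifs <;> omega
        · have h2' : (i : ℕ) ≠ j := fun h => h2 (Fin.ext h)
          simp only [if_neg h1, if_pos h3, if_neg h2, Pi.zero_apply]
          split_ifs <;> omega
      · have h3' : (k : ℕ) ≠ i + 1 := fun h => h3 (Fin.ext h)
        by_cases h2 : i = j
        · subst h2
          simp only [if_neg h1, if_neg h3, if_true]
          split_ifs <;> omega
        · simp only [if_neg h1, if_neg h3, if_neg h2, Pi.zero_apply, add_zero]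
  · simp only [dif_neg h, Pi.add_apply]
    by_cases h1 : k = i
    · subst h1
      by_cases h2 : k = j
      · subst h2
        simp only [if_true]
        split_ifs <;> omega
      · have h2' : (k : ℕ) ≠ j := fun h => h2 (Fin.ext h)
        simp only [if_true, if_neg h2, Pi.zero_apply]
        split_ifs <;> omega
    · have h1' : (k : ℕ) ≠ i := fun h => h1 (Fin.ext h)
      by_cases h2 : i = j
      · subst h2
        simp only [if_neg h1, if_true]
        split_ifs <;> omega
      · simp only [if_neg h1, if_neg h2, Pi.zero_apply, add_zero]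

/-- the pairing of the coroot `j` with the root `i` -/
def prB (j i : Fin n) : ℤ :=
  if i = j then 2 else if (j : ℕ) + 1 = i then -1
  else if (i : ℕ) + 1 = j then (if (j : ℕ) + 1 = n then -2 else -1) else 0

theorem sE_co (i j : Fin n) : sE i (co j) = co j + (-prB j i) • co i := by
  funext k
  have hi := i.2
  have hj := j.2
  have hk := k.2
  rw [Pi.add_apply, Pi.smul_apply, smul_eq_mul]
  unfold sE co prB
  simp only [Fin.ext_iff]
  by_cases h : (i : ℕ) + 1 < n
  · simp only [dif_pos h]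
    split_ifs <;> omega
  · simp only [dif_neg h]
    split_ifs <;> omega

/-- reduction to the last coordinate -/
theorem exists_last (hn : 0 < n) {C : Subgroup (V ≃ₗ[F] V)}
    (hC : ∀ j : Fin n, (j : ℕ) + 1 < n → ∀ x, dg Fr (cc (co j) x) 1 ∈ C) (l : Fin n → Fˣ) :
    ∃ c ∈ C, ∃ y : Fˣ, dg Fr (lam l) 1 = c * dg Fr (lam (Function.update 1 ⟨n - 1, by omega⟩ y)) 1 := by
  have key : ∀ m : ℕ, m + 1 ≤ n → ∀ l : Fin n → Fˣ, (∀ k : Fin n, (k : ℕ) < n - 1 - m → l k = 1) →
      ∃ c ∈ C, ∃ y : Fˣ, dg Fr (lam l) 1 = c * dg Fr (lam (Function.update 1 ⟨n - 1, by omega⟩ y)) 1 := by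
    intro m
    induction m with
    | zero =>
      intro _ l hl
      refine ⟨1, one_mem _, l ⟨n - 1, by omega⟩, ?_⟩
      rw [one_mul]
      congr 2
      funext k
      by_cases hk : k = ⟨n - 1, by omega⟩
      · rw [hk, Function.update_self]
      · rw [Function.update_of_ne hk, Pi.one_apply]
        refine hl k ?_
        have h1 : (k : ℕ) ≠ n - 1 := fun h => hk (Fin.ext h)
        have := k.2
        omega
    | succ m ih =>
      intro hm l hl
      let j : Fin n := ⟨n - 1 - (m + 1), by omega⟩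
      have hj1 : (j : ℕ) + 1 < n := by
        show n - 1 - (m + 1) + 1 < n
        omega
      have hcj : ∀ x, dg Fr (cc (co j) x) 1 ∈ C := hC j hj1
      let l' : Fin n → Fˣ := (fun k => (l j) ^ (-(co j k))) * l
      have hl' : ∀ k : Fin n, (k : ℕ) < n - 1 - m → l' k = 1 := by
        intro k hk
        show (l j) ^ (-(co j k)) * l k = 1
        by_cases hkj : k = j
        · have : co j j = 1 := by
            unfold co
            rw [if_pos rfl, if_neg (by omega)]
          rw [hkj, this, zpow_neg, zpow_one, inv_mul_cancel]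
        · have h1 : (k : ℕ) ≠ j := fun h => hkj (Fin.ext h)
          have h2 : (j : ℕ) = n - 1 - (m + 1) := rfl
          have h3 : co j k = 0 := by
            unfold co
            rw [if_neg hkj, if_neg (by omega)]
          rw [h3, neg_zero, zpow_zero, one_mul]
          exact hl k (by omega)
      obtain ⟨c, hc, y, e⟩ := ih (by omega) l' hl'
      refine ⟨dg Fr (cc (co j) (l j)) 1 * c, mul_mem (hcj _) hc, y, ?_⟩
      have h4 : lam l' = lam (fun k => (l j) ^ (-(co j k))) * lam l := lam_mul _ _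
      have h5 : cc (co j) (l j) * lam (fun k => (l j) ^ (-(co j k))) = 1 := by
        unfold cc
        rw [← lam_mul, ← lam_one]
        congr 1
        funext k
        rw [Pi.mul_apply, ← zpow_add, add_neg_cancel, zpow_zero]
        rfl
      have h6 : dg Fr (cc (co j) (l j)) 1 * dg Fr (lam l') 1 = dg Fr (cc (co j) (l j) * lam l') (1 * 1) :=
        (dg_mul Fr _ _ _ _).symm
      rw [mul_assoc, ← e, h6, h4, ← mul_assoc, h5, one_mul, one_mul]
  exact key (n - 1) (by omega) l (fun k hk => by omega)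

end Cfsg.Agent.H644.OZ
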