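import Cfsg.Agent.H644.OZ.Num
import Cfsg.Agent.H639.OZ.Val

/-!
# The numbers of double cosets `W_K \ W_J / W_K'` (S4842, toolkit section 6)

* `nd_eq_red` : they are the numbers of the elements without left descents in `K` and right descents in `K'`;
* `nd_model`  : computed in a model of `W_J`;
* `nd_A1, nd_A2, nd_A3` : the tables; `nd_prod` : products.
-/

set_option autoImplicit false
set_option linter.unusedSectionVars false

namespace Cfsg.Agent.H644.OZ

open Cfsg.Agent.ChevalleyStructure.CoxeterGeom Cfsg.Agent.Tits.Core Cfsg.Agent.Tits.OppRes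
open Cfsg.Agent.Tits.OppRes.Cox Cfsg.Agent.H694 Cfsg.Agent.H639.OZ Cfsg.Agent.H898.VZ

section

variable {I : Type*} [Fintype I] [DecidableEq I] {W : Type*} [Group W] [Finite W] {M : CoxeterMatrix I}
  (cs : CoxeterSystem M W) {A : I → I → ℤ} (h : IsCartan M A)

omit [Fintype I] [DecidableEq I] [Finite W] in
theorem lt_inv_iff {w : W} {i : I} : cs.length w⁻¹ < cs.length (w⁻¹ * cs.simple i) ↔
    cs.length w < cs.length (cs.simple i * w) := by
  rw [cs.length_inv, ← cs.length_inv (cs.simple i * w), mul_inv_rev, cs.inv_simple]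

include h in
/-- uniqueness of the reduced element of a double coset -/
theorem uniq {K K' : Set I} {w w' a b : W} (ha : a ∈ WJ cs K) (hb : b ∈ WJ cs K') (e : w' = a * w * b)
    (h1 : ∀ i ∈ K, cs.length w < cs.length (cs.simple i * w))
    (h2 : ∀ i ∈ K', cs.length w < cs.length (w * cs.simple i))
    (h1' : ∀ i ∈ K, cs.length w' < cs.length (cs.simple i * w'))
    (h2' : ∀ i ∈ K', cs.length w' < cs.length (w' * cs.simple i)) : w = w' := by
  classical
  have F : Cox cs := inferInstance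
  let c : I → ℤ := fun i => if i ∈ K' then 0 else 1
  have hc : ∀ i, 0 ≤ c i := fun i => by
    show 0 ≤ (if i ∈ K' then (0 : ℤ) else 1)
    split_ifs <;> norm_num
  have hcK : {i | c i = 0} = K' := by
    ext i
    show (if i ∈ K' then (0 : ℤ) else 1) = 0 ↔ i ∈ K'
    split_ifs with hi <;> simp [hi]
  have hd : ∀ v : W, (∀ i ∈ K, cs.length v < cs.length (cs.simple i * v)) →
      ∀ i ∈ K, 0 ≤ mv cs h v⁻¹ c i := by
    intro v hv i hi
    exact fn_nonneg (nonneg_of_lt cs h v⁻¹ i ((lt_inv_iff cs).2 (hv i hi))) fun j _ => hc j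
  have hbc : mv cs h b⁻¹ c = c := by
    rw [← mem_WJ_iff cs h hc, hcK]
    exact inv_mem hb
  have h3 : mv cs h a⁻¹ (mv cs h w⁻¹ c) = mv cs h w'⁻¹ c := by
    have : w'⁻¹ = b⁻¹ * w⁻¹ * a⁻¹ := by
      rw [e]
      group
    rw [this, mv_mul, mv_mul, hbc]
  have h4 := eq_of_dominant cs h (inv_mem ha) (hd w h1) (hd w' h1') h3
  have h5 : w⁻¹ * w' ∈ WJ cs K' := by
    rw [← hcK, mem_WJ_iff cs h hc, mv_mul, h4, ← mv_mul, inv_mul_cancel, mv_one]
  have h6 := F.add_right K' w h2 _ h5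
  have h7 := F.add_right K' w' h2' _ (inv_mem h5)
  rw [mul_inv_rev, inv_inv, mul_inv_cancel_left] at h7
  rw [mul_inv_cancel_left] at h6
  have h8 : cs.length (w⁻¹ * w') = 0 := by omega
  have h9 := cs.length_eq_zero_iff.1 h8
  exact (inv_mul_eq_one.1 h9)

include h in
/-- **the double cosets and the reduced elements** -/
theorem nd_eq_red {J K K' : Set I} (hK : K ⊆ J) (hK' : K' ⊆ J) :
    nd cs J K K' = Nat.card {w : W // w ∈ WJ cs J ∧ (∀ i ∈ K, cs.length w < cs.length (cs.simple i * w)) ∧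
      ∀ i ∈ K', cs.length w < cs.length (w * cs.simple i)} := by
  classical
  symm
  let f : {w : W // w ∈ WJ cs J ∧ (∀ i ∈ K, cs.length w < cs.length (cs.simple i * w)) ∧
      ∀ i ∈ K', cs.length w < cs.length (w * cs.simple i)} →
      DoubleCoset.Quotient (((WJ cs K).subgroupOf (WJ cs J) : Subgroup (WJ cs J)) : Set (WJ cs J))
        (((WJ cs K').subgroupOf (WJ cs J) : Subgroup (WJ cs J)) : Set (WJ cs J)) :=
    fun w => Quotient.mk _ (⟨w.1, w.2.1⟩ : WJ cs J)
  refine Nat.card_congr (Equiv.ofBijective f ⟨?_, ?_⟩)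
  · intro x y hxy
    obtain ⟨a, ha, b, hb, e⟩ := DoubleCoset.rel_iff.1 (Quotient.exact hxy)
    exact Subtype.ext (uniq cs h (a := (a : W)) (b := (b : W)) ha hb (congrArg Subtype.val e) x.2.2.1 x.2.2.2
      y.2.2.1 y.2.2.2)
  · intro q
    induction q using Quotient.inductionOn with
    | _ w =>
    have hex : ∃ n, ∃ a ∈ WJ cs K, ∃ b ∈ WJ cs K', cs.length (a * w * b) = n :=
      ⟨_, 1, one_mem _, 1, one_mem _, rfl⟩
    obtain ⟨a, ha, b, hb, hn⟩ := Nat.find_spec hex
    have hJ : a * w * b ∈ WJ cs J := mul_mem (mul_mem (WJ_mono hK ha) w.2) (WJ_mono hK' hb)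
    refine ⟨⟨a * w * b, hJ, fun i hi => ?_, fun i hi => ?_⟩, ?_⟩
    · rcases cs.length_simple_mul (a * w * b) i with h' | h'
      · omega
      · exfalso
        refine Nat.find_min hex (m := cs.length (cs.simple i * (a * w * b))) (by omega)
          ⟨cs.simple i * a, mul_mem (simple_mem_WJ hi) ha, b, hb, by simp only [mul_assoc]⟩
    · rcases cs.length_mul_simple (a * w * b) i with h' | h'
      · omega
      · exfalso
        refine Nat.find_min hex (m := cs.length (a * w * b * cs.simple i)) (by omega)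
          ⟨a, ha, b * cs.simple i, mul_mem hb (simple_mem_WJ hi), by simp only [mul_assoc]⟩
    · refine (Quotient.sound (DoubleCoset.rel_iff.2 ?_)).symm
      exact ⟨⟨a, WJ_mono hK ha⟩, ha, ⟨b, WJ_mono hK' hb⟩, hb, rfl⟩

variable {κ : Type*} {Γ : Type*} [Group Γ] {j : κ → I} {a : κ → κ → ℤ} {s : κ → Γ} {φ : Γ → κ → ℤ}

include h in
/-- **the numbers in a model** -/
theorem nd_model (hM : Model a s φ) (ha : ∀ k l, A (j k) (j l) = a k l) (K K' : Set κ) :
    nd cs (Set.range j) (j '' K) (j '' K') = nr φ K K' := by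
  rw [nd_eq_red cs h (Set.image_subset_range j K) (Set.image_subset_range j K'), card_eq cs h hM ha]
  rfl

omit [Fintype I] [DecidableEq I] in
theorem cart_of_three (h : IsCartan M A) {x y : I} (hxy : M x y = 3) : A x y = -1 ∧ A y x = -1 := by
  have hne : x ≠ y := by
    rintro rfl
    rw [M.diagonal] at hxy
    omega
  rcases h.rel x y hne with h1 | h1 | h1 | h1
  · omega
  · exact h1.2
  · omega
  · omega

omit [Fintype I] [DecidableEq I] in
theorem cart_of_two (h : IsCartan M A) {x y : I} (hxy : M x y = 2) : A x y = 0 ∧ A y x = 0 := by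
  have hne : x ≠ y := by
    rintro rfl
    rw [M.diagonal] at hxy
    omega
  rcases h.rel x y hne with h1 | h1 | h1 | h1
  · exact h1.2
  · omega
  · omega
  · omega

include h in
/-- **type `A₁`** -/
theorem nd_A1 (x : I) : ∀ i j, (nd cs {x} ((![∅, {x}] : Fin 2 → Set I) i) ((![∅, {x}] : Fin 2 → Set I) j) : ℤ) =
    gA1 i j := by
  have hr : Set.range (![x] : Fin 1 → I) = {x} := by
    ext y
    simp [eq_comm]
  have hS : ∀ i : Fin 2, (![∅, {x}] : Fin 2 → Set I) i = (![x] : Fin 1 → I) '' (S1 i : Set (Fin 1)) := by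
    intro i
    fin_cases i <;> simp [S1]
  have ha : ∀ k l : Fin 1, A ((![x] : Fin 1 → I) k) ((![x] : Fin 1 → I) l) = cartA 1 k l := by
    intro k l
    fin_cases k
    fin_cases l
    exact h.diag x
  intro i j
  rw [hS, hS, ← hr, nd_model cs h (model_A 1) ha]
  unfold nr
  have h1 := card_A1 i j
  rw [← Nat.card_eq_fintype_card] at h1
  simp only [Finset.mem_coe]
  rw [h1]
  fin_cases i <;> fin_cases j <;> rfl

include h in
/-- **type `A₂`** -/
theorem nd_A2 {x y : I} (hxy : M x y = 3) :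
    ∀ i j, (nd cs {x, y} ((![∅, {x}, {x, y}] : Fin 3 → Set I) i) ((![∅, {x}, {x, y}] : Fin 3 → Set I) j) : ℤ) =
    gA2 i j := by
  have hr : Set.range (![x, y] : Fin 2 → I) = {x, y} := by
    ext z
    simp only [Matrix.range_cons, Matrix.range_empty, Set.union_empty, Set.mem_union, Set.mem_singleton_iff,
      Set.mem_insert_iff]
  have hS : ∀ i : Fin 3, (![∅, {x}, {x, y}] : Fin 3 → Set I) i = (![x, y] : Fin 2 → I) '' (S2 i : Set (Fin 2)) := by
    intro i
    fin_cases i <;> simp [S2, Set.image_insert_eq]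
  obtain ⟨e1, e2⟩ := cart_of_three h hxy
  have ha : ∀ k l : Fin 2, A ((![x, y] : Fin 2 → I) k) ((![x, y] : Fin 2 → I) l) = cartA 2 k l := by
    intro k l
    fin_cases k <;> fin_cases l
    · exact h.diag x
    · exact e1
    · exact e2
    · exact h.diag y
  intro i j
  rw [hS, hS, ← hr, nd_model cs h (model_A 2) ha]
  unfold nr
  have h1 := card_A2 i j
  rw [← Nat.card_eq_fintype_card] at h1
  simp only [Finset.mem_coe]
  rw [h1]
  fin_cases i <;> fin_cases j <;> rfl

include h in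
/-- **type `A₃`** -/
theorem nd_A3 {x y z : I} (hxy : M x y = 3) (hyz : M y z = 3) (hxz : M x z = 2) :
    ∀ i j, (nd cs {x, y, z} ((![∅, {x}, {x, z}, {x, y}, {x, y, z}] : Fin 5 → Set I) i)
      ((![∅, {x}, {x, z}, {x, y}, {x, y, z}] : Fin 5 → Set I) j) : ℤ) = gA3 i j := by
  have hr : Set.range (![x, y, z] : Fin 3 → I) = {x, y, z} := by
    ext u
    simp only [Matrix.range_cons, Matrix.range_empty, Set.union_empty, Set.mem_union, Set.mem_singleton_iff,
      Set.mem_insert_iff]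
  have hS : ∀ i : Fin 5, (![∅, {x}, {x, z}, {x, y}, {x, y, z}] : Fin 5 → Set I) i =
      (![x, y, z] : Fin 3 → I) '' (S3 i : Set (Fin 3)) := by
    intro i
    fin_cases i <;> simp [S3, Set.image_insert_eq]
  obtain ⟨e1, e2⟩ := cart_of_three h hxy
  obtain ⟨e3, e4⟩ := cart_of_three h hyz
  obtain ⟨e5, e6⟩ := cart_of_two h hxz
  have ha : ∀ k l : Fin 3, A ((![x, y, z] : Fin 3 → I) k) ((![x, y, z] : Fin 3 → I) l) = cartA 3 k l := by
    intro k l
    fin_cases k <;> fin_cases l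
    · exact h.diag x
    · exact e1
    · exact e5
    · exact e2
    · exact h.diag y
    · exact e3
    · exact e6
    · exact e4
    · exact h.diag z
  intro i j
  rw [hS, hS, ← hr, nd_model cs h (model_A 3) ha]
  unfold nr
  have h1 := card_A3 i j
  rw [← Nat.card_eq_fintype_card] at h1
  simp only [Finset.mem_coe]
  rw [h1]
  fin_cases i <;> fin_cases j <;> rfl

end

/-! ### Products -/

theorem card_quot_prod {α β γ : Type*} (r1 : Setoid α) (r2 : Setoid β) (r : Setoid γ) (F : α × β → γ)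
    (hF : Function.Surjective F) (hr : ∀ x y, r (F x) (F y) ↔ r1 x.1 y.1 ∧ r2 x.2 y.2) :
    Nat.card (Quotient r) = Nat.card (Quotient r1) * Nat.card (Quotient r2) := by
  rw [← Nat.card_prod]
  symm
  refine Nat.card_congr (Equiv.ofBijective (fun p : Quotient r1 × Quotient r2 =>
    Quotient.map₂ (fun x y => F (x, y)) (fun x x' hx y y' hy => (hr (x, y) (x', y')).2 ⟨hx, hy⟩) p.1 p.2) ⟨?_, ?_⟩)
  · rintro ⟨x, y⟩ ⟨x', y'⟩
    induction x using Quotient.inductionOn with
    | _ x =>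
    induction y using Quotient.inductionOn with
    | _ y =>
    induction x' using Quotient.inductionOn with
    | _ x' =>
    induction y' using Quotient.inductionOn with
    | _ y' =>
    intro h1
    obtain ⟨h2, h3⟩ := (hr (x, y) (x', y')).1 (Quotient.exact h1)
    exact Prod.ext (Quotient.sound h2) (Quotient.sound h3)
  · intro q
    induction q using Quotient.inductionOn with
    | _ w =>
    obtain ⟨⟨x, y⟩, rfl⟩ := hF w
    exact ⟨(Quotient.mk _ x, Quotient.mk _ y), rfl⟩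

section

variable {I : Type*} {W : Type*} [Group W] {M : CoxeterMatrix I} (cs : CoxeterSystem M W)

theorem simple_comm {i k : I} (hik : M i k = 2) : cs.simple i * cs.simple k = cs.simple k * cs.simple i := by
  have h1 := cs.simple_mul_simple_pow i k
  rw [hik, pow_two] at h1
  have h2 := eq_inv_of_mul_eq_one_left h1
  rw [h2, mul_inv_rev, cs.inv_simple, cs.inv_simple]

theorem WJ_comm {J J' : Set I} (hc : ∀ i ∈ J, ∀ k ∈ J', M i k = 2) {u v : W} (hu : u ∈ WJ cs J) (hv : v ∈ WJ cs J') :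
    u * v = v * u := by
  have h1 : WJ cs J ≤ Subgroup.centralizer (WJ cs J' : Set W) := by
    unfold WJ
    rw [Subgroup.closure_le]
    rintro _ ⟨i, hi, rfl⟩
    rw [SetLike.mem_coe, Subgroup.mem_centralizer_iff]
    intro g hg
    have h2 : Subgroup.closure (cs.simple '' J') ≤ Subgroup.centralizer ({cs.simple i} : Set W) := by
      rw [Subgroup.closure_le]
      rintro _ ⟨k, hk, rfl⟩
      rw [SetLike.mem_coe, Subgroup.mem_centralizer_iff]
      rintro _ rfl
      exact simple_comm cs (hc i hi k hk)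
    have h3 := Subgroup.mem_centralizer_iff.1 (h2 hg) (cs.simple i) rfl
    exact h3.symm
  exact (Subgroup.mem_centralizer_iff.1 (h1 hu) v hv).symm

theorem exists_mul_of_union {J J' : Set I} (hc : ∀ i ∈ J, ∀ k ∈ J', M i k = 2) {w : W} (hw : w ∈ WJ cs (J ∪ J')) :
    ∃ u ∈ WJ cs J, ∃ v ∈ WJ cs J', w = u * v := by
  have key : ∀ i ∈ J ∪ J', ∀ w : W, (∃ u ∈ WJ cs J, ∃ v ∈ WJ cs J', w = u * v) →
      ∃ u ∈ WJ cs J, ∃ v ∈ WJ cs J', cs.simple i * w = u * v := by
    rintro i hi w ⟨u, hu, v, hv, rfl⟩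
    rcases hi with hi | hi
    · exact ⟨cs.simple i * u, mul_mem (simple_mem_WJ hi) hu, v, hv, by rw [mul_assoc]⟩
    · refine ⟨u, hu, cs.simple i * v, mul_mem (simple_mem_WJ hi) hv, ?_⟩
      rw [← mul_assoc, ← mul_assoc, WJ_comm cs hc hu (simple_mem_WJ hi)]
  induction hw using Subgroup.closure_induction_left with
  | one => exact ⟨1, one_mem _, 1, one_mem _, (mul_one 1).symm⟩
  | mul_left x hx y _ ih =>
    obtain ⟨i, hi, rfl⟩ := hx
    exact key i hi _ ih
  | inv_mul_cancel x hx y _ ih =>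
    obtain ⟨i, hi, rfl⟩ := hx
    rw [cs.inv_simple]
    exact key i hi _ ih

theorem eq_of_mul_eq [Cox cs] {J J' : Set I} (hc : ∀ i ∈ J, ∀ k ∈ J', M i k = 2) {u u' v v' : W} (hu : u ∈ WJ cs J)
    (hu' : u' ∈ WJ cs J) (hv : v ∈ WJ cs J') (hv' : v' ∈ WJ cs J') (e : u * v = u' * v') : u = u' ∧ v = v' := by
  have hd : J ∩ J' = ∅ := by
    ext i
    constructor
    · rintro ⟨h1, h2⟩
      have h3 := hc i h1 i h2
      rw [M.diagonal] at h3
      omega
    · exact fun h => h.elim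
  have h1 : u'⁻¹ * u = v' * v⁻¹ := by
    have := congrArg (fun t => u'⁻¹ * t * v⁻¹) e
    simpa [mul_assoc] using this
  have h2 : u'⁻¹ * u ∈ WJ cs (J ∩ J') :=
    Cox.WJ_inter inferInstance (mul_mem (inv_mem hu') hu) (by rw [h1]; exact mul_mem hv' (inv_mem hv))
  rw [hd, WJ, Set.image_empty, Subgroup.closure_empty, Subgroup.mem_bot] at h2
  have h3 : u = u' := (inv_mul_eq_one.1 h2).symm
  refine ⟨h3, ?_⟩
  rw [h3] at e
  exact mul_left_cancel e

/-- **products** -/
theorem nd_prod [Finite I] [Finite W] {J J' K K' L L' : Set I} (hc : ∀ i ∈ J, ∀ k ∈ J', M i k = 2) (hK : K ⊆ J) (hL : L ⊆ J)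
    (hK' : K' ⊆ J') (hL' : L' ⊆ J') :
    nd cs (J ∪ J') (K ∪ K') (L ∪ L') = nd cs J K L * nd cs J' K' L' := by
  have hJ : WJ cs J ≤ WJ cs (J ∪ J') := WJ_mono Set.subset_union_left
  have hJ' : WJ cs J' ≤ WJ cs (J ∪ J') := WJ_mono Set.subset_union_right
  unfold nd
  refine card_quot_prod _ _ _ (fun x : WJ cs J × WJ cs J' =>
    (⟨(x.1 : W) * (x.2 : W), mul_mem (hJ x.1.2) (hJ' x.2.2)⟩ : WJ cs (J ∪ J'))) ?_ ?_
  · rintro ⟨w, hw⟩
    obtain ⟨u, hu, v, hv, rfl⟩ := exists_mul_of_union cs hc hw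
    exact ⟨(⟨u, hu⟩, ⟨v, hv⟩), rfl⟩
  · rintro ⟨u, v⟩ ⟨u', v'⟩
    have hcK : ∀ i ∈ K, ∀ k ∈ K', M i k = 2 := fun i hi k hk => hc i (hK hi) k (hK' hk)
    have hcL : ∀ i ∈ L, ∀ k ∈ L', M i k = 2 := fun i hi k hk => hc i (hL hi) k (hL' hk)
    rw [DoubleCoset.rel_iff, DoubleCoset.rel_iff, DoubleCoset.rel_iff]
    constructor
    · rintro ⟨x, hx, y, hy, e⟩
      obtain ⟨x1, hx1, x2, hx2, ex⟩ := exists_mul_of_union cs hcK (show (x : W) ∈ WJ cs (K ∪ K') from hx)
      obtain ⟨y1, hy1, y2, hy2, ey⟩ := exists_mul_of_union cs hcL (show (y : W) ∈ WJ cs (L ∪ L') from hy)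
      have e1 : (u' : W) * (v' : W) = (x1 * u * y1) * (x2 * v * y2) := by
        have h1 : (u' : W) * (v' : W) = (x : W) * ((u : W) * (v : W)) * (y : W) := congrArg Subtype.val e
        have c1 : x2 * (u : W) = u * x2 := (WJ_comm cs hc u.2 (WJ_mono hK' hx2)).symm
        have c2 : (x2 * v : W) * y1 = y1 * (x2 * v) :=
          (WJ_comm cs hc (WJ_mono hL hy1) (mul_mem (WJ_mono hK' hx2) v.2)).symm
        rw [h1, ex, ey]
        calc x1 * x2 * ((u : W) * v) * (y1 * y2) = x1 * (x2 * u) * v * y1 * y2 := by simp only [mul_assoc]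
          _ = x1 * u * ((x2 * v) * y1) * y2 := by rw [c1]; simp only [mul_assoc]
          _ = _ := by rw [c2]; simp only [mul_assoc]
      obtain ⟨e2, e3⟩ := eq_of_mul_eq cs hc u'.2 (mul_mem (mul_mem (WJ_mono hK hx1) u.2) (WJ_mono hL hy1)) v'.2
        (mul_mem (mul_mem (WJ_mono hK' hx2) v.2) (WJ_mono hL' hy2)) e1
      exact ⟨⟨⟨x1, WJ_mono hK hx1⟩, hx1, ⟨y1, WJ_mono hL hy1⟩, hy1, Subtype.ext e2⟩,
        ⟨⟨x2, WJ_mono hK' hx2⟩, hx2, ⟨y2, WJ_mono hL' hy2⟩, hy2, Subtype.ext e3⟩⟩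
    · rintro ⟨⟨x1, hx1, y1, hy1, e1⟩, ⟨x2, hx2, y2, hy2, e2⟩⟩
      have f1 : (u' : W) = x1 * u * y1 := congrArg Subtype.val e1
      have f2 : (v' : W) = x2 * v * y2 := congrArg Subtype.val e2
      refine ⟨⟨(x1 : W) * x2, mul_mem (hJ x1.2) (hJ' x2.2)⟩,
        mul_mem (WJ_mono Set.subset_union_left hx1) (WJ_mono Set.subset_union_right hx2),
        ⟨(y1 : W) * y2, mul_mem (hJ y1.2) (hJ' y2.2)⟩,
        mul_mem (WJ_mono Set.subset_union_left hy1) (WJ_mono Set.subset_union_right hy2), Subtype.ext ?_⟩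
      show (u' : W) * (v' : W) = (x1 : W) * x2 * ((u : W) * v) * ((y1 : W) * y2)
      have c1 : (x2 : W) * (u : W) = u * x2 := (WJ_comm cs hc u.2 x2.2).symm
      have c2 : ((x2 : W) * v) * y1 = y1 * ((x2 : W) * v) := (WJ_comm cs hc y1.2 (mul_mem x2.2 v.2)).symm
      rw [f1, f2]
      symm
      calc (x1 : W) * x2 * ((u : W) * v) * ((y1 : W) * y2) = x1 * (x2 * u) * v * y1 * y2 := by simp only [mul_assoc]
        _ = x1 * u * ((x2 * v) * y1) * y2 := by rw [c1]; simp only [mul_assoc]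
        _ = _ := by rw [c2]; simp only [mul_assoc]

end

end Cfsg.Agent.H644.OZ
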