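import Cfsg.Agent.H644.OZ.Co

/-!
# S4842: torus data of `POmega_{2m+1}(q)`, `q` odd (helper644)

`Fr = toFrame (wodd m F)`, `M = model (wodd m F) hG hp`, `M.I = E Q`.

* `td` : `TD (T M) (nw M hA p0) (Ap true m) (hh M hσ hA hp0)`;
* `sh j x` : `b (k, +) ↦ x⁻¹ b (k, +)` for `k ≤ j`, the identity on `V0` and on `b (k, ±)`, `k > j`;
* `dd hG j x` : the automorphism with `dd (φ g) = φ (sh g sh⁻¹)`; `dia_dd`, `dd_nw_self`, `dd_nw_ne`;
* `hd_of` : `HD` from the elements `a`.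
-/

set_option autoImplicit false
set_option linter.unusedSectionVars false

namespace Cfsg.Agent.H644.OZ

open Cfsg
open CoxeterSystem Cfsg.Agent.ChevalleyStructure.CoxeterGeom Cfsg.Agent.Tits.Roots Cfsg.Agent.Nodes.TypeC
open Cfsg.Agent.Nodes Cfsg.Agent.Nodes.Comb Cfsg.Agent.Nodes.Reps Cfsg.Agent.Nodes.WittRoot Cfsg.Agent.Nodes.BNOf
open Cfsg.Agent.Nodes.WittRGD Cfsg.Agent.Nodes.RGDLib Cfsg.Agent.Nodes.WittAll
open Cfsg.Agent.TitsThree Cfsg.Agent.TitsThree.Siegel Cfsg.Agent.TitsThree.WittFrame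
  Cfsg.Agent.TitsThree.WittWeyl Cfsg.Agent.TitsThree.FrameCN
open Cfsg.Agent.Nodes.StabComb Cfsg.Agent.Nodes.Bruhat Cfsg.Agent.Nodes.LeviDec
open QuadraticMap Cfsg.Agent.LieClassical Cfsg.Agent.LieClassical.OrthCore Cfsg.Agent.LieClassical.OrthForms
open Cfsg.Agent.LieClassical.OrthFinite Cfsg.Agent.LieClassical.OrthSimple
open Cfsg.Agent.TitsThree.KSideO Cfsg.Agent.TitsThree.WBridge Cfsg.Agent.Nodes.WittU Cfsg.Agent.Nodes.WittInst
open Cfsg.Agent.ClassicalGeometry.SpinorSign Cfsg.Agent.ClassicalGeometry.Reflection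
open Cfsg.Agent.H200.VZ

/-! ### Diagonal maps in coordinates -/

section Diag

variable {ι : Type} [Fintype ι] [DecidableEq ι] {F : Type*} [Field F]

theorem toMatrix_diag {g : (ι → F) ≃ₗ[F] (ι → F)} {d : ι → F} (h : ∀ i, g (Pi.single i 1) = d i • Pi.single i 1) :
    LinearMap.toMatrix' g.toLinearMap = Matrix.diagonal d := by
  ext i j
  rw [LinearMap.toMatrix'_apply]
  have h1 : (fun j' => if j' = j then (1 : F) else 0) = Pi.single j 1 := by
    funext k
    rw [Pi.single_apply]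
  have h2 := congrFun (h j) i
  rw [Matrix.diagonal_apply, LinearEquiv.coe_coe]
  simp only [h1] at *
  rw [h2, Pi.smul_apply, smul_eq_mul, Pi.single_apply]
  by_cases e : i = j
  · subst e
    simp
  · simp [e]

theorem diag_apply {g : (ι → F) ≃ₗ[F] (ι → F)} {d : ι → F} (h : ∀ i, g (Pi.single i 1) = d i • Pi.single i 1)
    (v : ι → F) (i : ι) : g v i = d i * v i := by
  have h1 := toMatrix_diag h
  have h2 : g.toLinearMap v = Matrix.toLin' (LinearMap.toMatrix' g.toLinearMap) v := by rw [Matrix.toLin'_toMatrix']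
  have h3 : g v = Matrix.toLin' (Matrix.diagonal d) v := by rw [← h1]; exact h2
  rw [h3, Matrix.toLin'_apply, Matrix.mulVec_diagonal]

theorem diag_det {g : (ι → F) ≃ₗ[F] (ι → F)} {d : ι → F} (h : ∀ i, g (Pi.single i 1) = d i • Pi.single i 1) :
    LinearMap.det g.toLinearMap = ∏ i, d i := by
  rw [← LinearMap.det_toMatrix', toMatrix_diag h, Matrix.det_diagonal]

/-- a character of `O Q` is trivial on `E Q` -/
theorem char_E {Q : QuadraticForm F (ι → F)} (hG : OrthTrans.Good Q) {A : Type*} [CommGroup A] (θ : O Q →* A) {g : O Q}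
    (hg : g.1 ∈ E Q) : θ g = 1 := by
  rw [← hG.commutator_eq_E, ← Subgroup.map_subtype_commutator] at hg
  obtain ⟨z, hz, e⟩ := hg
  have e' : z = g := Subtype.ext e
  subst e'
  exact Abelianization.commutator_subset_ker θ hz

theorem det_E {Q : QuadraticForm F (ι → F)} (hG : OrthTrans.Good Q) {g : (ι → F) ≃ₗ[F] (ι → F)} (hg : g ∈ E Q) :
    LinearMap.det g.toLinearMap = 1 := by
  have h1 := char_E hG ((LinearEquiv.det (R := F) (M := ι → F)).comp (O Q).subtype) (g := ⟨g, E_le_O hg⟩) hg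
  have h2 : ((LinearEquiv.det g : Fˣ) : F) = 1 := congrArg Units.val h1
  rwa [LinearEquiv.coe_det] at h2

end Diag

section Om

variable (m : ℕ) (F : Type) [Field F]


theorem single_true (i : Fin m) : (Pi.single (Sum.inr (Sum.inl i)) 1 : Unit ⊕ (Fin m ⊕ Fin m) → F) = (toFrame (wodd m F)).b (i, true) := rfl

theorem single_false (i : Fin m) : (Pi.single (Sum.inr (Sum.inr i)) 1 : Unit ⊕ (Fin m ⊕ Fin m) → F) = (toFrame (wodd m F)).b (i, false) :=
  rfl

theorem single_V0 : (Pi.single (Sum.inl ()) 1 : Unit ⊕ (Fin m ⊕ Fin m) → F) ∈ (toFrame (wodd m F)).V0 := by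
  intro j
  rw [Pi.single_apply, if_neg (by simp)]

variable {m F}

/-- the weights in coordinates -/
def wc (s : Fin m × Bool → F) (s0 : F) : Unit ⊕ (Fin m ⊕ Fin m) → F :=
  Sum.elim (fun _ => s0) (Sum.elim (fun i => s (i, true)) fun i => s (i, false))

theorem single_of {g : (Unit ⊕ (Fin m ⊕ Fin m) → F) ≃ₗ[F] (Unit ⊕ (Fin m ⊕ Fin m) → F)} {s : Fin m × Bool → F} {s0 : F}
    (hb : ∀ x, g ((toFrame (wodd m F)).b x) = s x • (toFrame (wodd m F)).b x)
    (h0 : g (Pi.single (Sum.inl ()) 1) = s0 • Pi.single (Sum.inl ()) 1) (i : Unit ⊕ (Fin m ⊕ Fin m)) :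
    g (Pi.single i 1) = wc s s0 i • Pi.single i 1 := by
  rcases i with i | i | i
  · exact h0
  · exact hb (i, true)
  · exact hb (i, false)

theorem V0_span {w : Unit ⊕ (Fin m ⊕ Fin m) → F} (hw : w ∈ (toFrame (wodd m F)).V0) : w = w (Sum.inl ()) • Pi.single (Sum.inl ()) 1 := by
  have hw' : ∀ j, w (Sum.inr j) = 0 := hw
  funext i
  rcases i with i | i
  · simp
  · rw [hw' i, Pi.smul_apply, Pi.single_apply, if_neg (by simp), smul_zero]

theorem Q_diag {g : (Unit ⊕ (Fin m ⊕ Fin m) → F) ≃ₗ[F] (Unit ⊕ (Fin m ⊕ Fin m) → F)} {l : Fin m → Fˣ}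
    (hb : ∀ x, g ((toFrame (wodd m F)).b x) = (lam l x : F) • (toFrame (wodd m F)).b x) (h0 : g (Pi.single (Sum.inl ()) 1) = Pi.single (Sum.inl ()) 1) :
    g ∈ O (oddForm m F) := by
  have h1 := diag_apply (single_of (s := fun x => (lam l x : F)) (s0 := 1) hb (by rw [h0, one_smul]))
  intro v
  rw [coe_oddForm, quadFormOdd_apply, quadFormOdd_apply]
  simp only [h1, wc, Sum.elim_inl, Sum.elim_inr, one_mul, lam_true, lam_false]
  congr 1
  refine Finset.sum_congr rfl fun k _ => ?_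
  have := (l k).ne_zero
  rw [Units.val_inv_eq_inv_val]
  field_simp

theorem dg_mem_O (l : Fin m → Fˣ) : dg (toFrame (wodd m F)) (lam l) 1 ∈ O (oddForm m F) :=
  Q_diag (l := l) (fun x => dg_b _ _ _ x) (by rw [dg_V0 _ _ _ (single_V0 m F), Units.val_one, one_smul])

/-! ### The last coordinate: the spinor norm -/

section spinor

/-- reflections as elements of `O Q` -/
noncomputable def rO (v : Unit ⊕ (Fin m ⊕ Fin m) → F) (hv : (oddForm m F) v ≠ 0) : O (oddForm m F) := isometryEquiv (oddForm m F) (reflIso (oddForm m F) v hv)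

theorem rO_apply (v : Unit ⊕ (Fin m ⊕ Fin m) → F) (hv : (oddForm m F) v ≠ 0) (x : Unit ⊕ (Fin m ⊕ Fin m) → F) :
    (rO v hv).1 x = x - (((oddForm m F) v)⁻¹ * polar (oddForm m F) v x) • v := by
  unfold rO
  rw [isometryEquiv_apply, coe_reflIso, reflectionMatrix_mulVec]

/-- the spinor sign -/
noncomputable def th [Finite F] : O (oddForm m F) →* ℤˣ := (spinorSign (⇑(oddForm m F)) (-1)).comp (isometryEquiv (oddForm m F)).symm.toMonoidHom

open Classical in
theorem th_rO [Finite F] (h2 : (2 : F) ≠ 0) (v : Unit ⊕ (Fin m ⊕ Fin m) → F) (hv : (oddForm m F) v ≠ 0) :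
    th (rO v hv) = if IsSquare (-1 * (oddForm m F) v) then -1 else 1 := by
  unfold th rO
  rw [MonoidHom.comp_apply]
  have h1 : (isometryEquiv (oddForm m F)).symm.toMonoidHom (isometryEquiv (oddForm m F) (reflIso (oddForm m F) v hv)) = reflIso (oddForm m F) v hv :=
    (isometryEquiv (oddForm m F)).symm_apply_apply _
  rw [h1]
  exact spinorSign_reflIso h2 (oddForm m F) (neg_ne_zero.2 one_ne_zero) v hv

variable (hm : 0 < m)

theorem QO_ef (k : Fin m) (a : F) : (oddForm m F) ((toFrame (wodd m F)).b (k, true) - a • (toFrame (wodd m F)).b (k, false)) = -a := by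
  rw [sub_eq_add_neg, ← neg_smul, Q_add, QuadraticMap.map_smul, polar_smul_right]
  have h1 : (oddForm m F) ((toFrame (wodd m F)).b (k, true)) = 0 := (sing_iff (oddForm m F)).1 (b_sing (wodd m F) (k, true))
  have h2 : (oddForm m F) ((toFrame (wodd m F)).b (k, false)) = 0 := (sing_iff (oddForm m F)).1 (b_sing (wodd m F) (k, false))
  have h3 : polar (oddForm m F) ((toFrame (wodd m F)).b (k, true)) ((toFrame (wodd m F)).b (k, false)) = 1 := by
    have := (wodd m F).ef k k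
    rw [if_pos rfl] at this
    exact this
  rw [h1, h2, h3]
  simp

theorem polar_ef (k : Fin m) (a : F) (x : Unit ⊕ (Fin m ⊕ Fin m) → F) :
    polar (oddForm m F) ((toFrame (wodd m F)).b (k, true) - a • (toFrame (wodd m F)).b (k, false)) x =
      polar (oddForm m F) ((toFrame (wodd m F)).b (k, true)) x - a * polar (oddForm m F) ((toFrame (wodd m F)).b (k, false)) x := by
  rw [sub_eq_add_neg, ← neg_smul, polar_add_left, polar_smul_left, smul_eq_mul]
  ring

/-- the diagonal elements in the last coordinate are products of two reflections -/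
theorem last_eq (k : Fin m) (y : Fˣ) (h1 : (oddForm m F) ((toFrame (wodd m F)).b (k, true) - (1 : F) • (toFrame (wodd m F)).b (k, false)) ≠ 0)
    (hy : (oddForm m F) ((toFrame (wodd m F)).b (k, true) - ((y⁻¹ : Fˣ) : F) • (toFrame (wodd m F)).b (k, false)) ≠ 0) :
    (rO _ hy * rO _ h1).1 = dg (toFrame (wodd m F)) (lam (Function.update 1 k y)) 1 := by
  have hb : ∀ x y : Fin m × Bool, polar (oddForm m F) ((toFrame (wodd m F)).b x) ((toFrame (wodd m F)).b y) = (HO (oddForm m F)).h ((toFrame (wodd m F)).b x) ((toFrame (wodd m F)).b y) := fun _ _ => rfl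
  have hη : ∀ x : Fin m × Bool, (toFrame (wodd m F)).η x = 1 := fun x => by unfold Frame.η; split_ifs <;> rfl
  have pt : polar (oddForm m F) ((toFrame (wodd m F)).b (k, true)) ((toFrame (wodd m F)).b (k, false)) = 1 := by
    rw [hb]
    exact ((toFrame (wodd m F)).hb_self_neg (k, true)).trans (hη _)
  have pf : polar (oddForm m F) ((toFrame (wodd m F)).b (k, false)) ((toFrame (wodd m F)).b (k, true)) = 1 := by
    rw [hb]
    exact ((toFrame (wodd m F)).hb_self_neg (k, false)).trans (hη _)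
  have ptt : polar (oddForm m F) ((toFrame (wodd m F)).b (k, true)) ((toFrame (wodd m F)).b (k, true)) = 0 := (toFrame (wodd m F)).hb_self _
  have pff : polar (oddForm m F) ((toFrame (wodd m F)).b (k, false)) ((toFrame (wodd m F)).b (k, false)) = 0 := (toFrame (wodd m F)).hb_self _
  have step : ∀ (a : F) (ha : (oddForm m F) ((toFrame (wodd m F)).b (k, true) - a • (toFrame (wodd m F)).b (k, false)) ≠ 0), a ≠ 0 →
      (rO _ ha).1 ((toFrame (wodd m F)).b (k, true)) = a • (toFrame (wodd m F)).b (k, false) ∧ (rO _ ha).1 ((toFrame (wodd m F)).b (k, false)) = a⁻¹ • (toFrame (wodd m F)).b (k, true) ∧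
      (∀ x, polar (oddForm m F) ((toFrame (wodd m F)).b (k, true)) x = 0 → polar (oddForm m F) ((toFrame (wodd m F)).b (k, false)) x = 0 → (rO _ ha).1 x = x) := by
    intro a ha ha0
    refine ⟨?_, ?_, ?_⟩
    · rw [rO_apply, QO_ef, polar_ef, ptt, pf, smul_sub]
      have e : (-a)⁻¹ * (0 - a * 1) = 1 := by field_simp; ring
      rw [e, one_smul, one_smul, sub_sub_cancel]
    · rw [rO_apply, QO_ef, polar_ef, pff, pt, smul_sub, smul_smul]
      have e : (-a)⁻¹ * (1 - a * 0) = -a⁻¹ := by rw [mul_zero, sub_zero, mul_one, inv_neg]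
      have e2 : -a⁻¹ * a = -1 := by rw [neg_mul, inv_mul_cancel₀ ha0]
      rw [e, e2, neg_smul, neg_smul, one_smul]
      abel
    · intro x h3 h4
      rw [rO_apply, polar_ef, h3, h4, mul_zero, sub_zero, mul_zero, zero_smul, sub_zero]
  obtain ⟨a1, a2, a3⟩ := step 1 h1 one_ne_zero
  obtain ⟨b1, b2, b3⟩ := step _ hy (y⁻¹).ne_zero
  have hV0 : ∀ v, (∀ x, (HO (oddForm m F)).h v ((toFrame (wodd m F)).b x) = 0) → v ∈ (toFrame (wodd m F)).V0 := fun v h =>
    mem_V0_of_orth (wodd m F) (fun i => h (i, true)) (fun i => h (i, false))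
  have hmul : ∀ x, (rO _ hy * rO _ h1).1 x = (rO _ hy).1 ((rO _ h1).1 x) := fun _ => rfl
  refine ext_b hV0 (fun z => ?_) fun w hw => ?_
  · rw [hmul, dg_b]
    obtain ⟨j, b⟩ := z
    by_cases hj : j = k
    · subst hj
      cases b
      · rw [a2, map_smul, b1, smul_smul, lam_false, Function.update_self, inv_one, one_mul]
      · rw [a1, map_smul, b2, smul_smul, lam_true, Function.update_self, one_mul, Units.val_inv_eq_inv_val, inv_inv]
    · have h3 : polar (oddForm m F) ((toFrame (wodd m F)).b (k, true)) ((toFrame (wodd m F)).b (j, b)) = 0 := (toFrame (wodd m F)).hb_of_ne (x := (k, true)) (y := (j, b)) (Ne.symm hj)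
      have h4 : polar (oddForm m F) ((toFrame (wodd m F)).b (k, false)) ((toFrame (wodd m F)).b (j, b)) = 0 :=
        (toFrame (wodd m F)).hb_of_ne (x := (k, false)) (y := (j, b)) (Ne.symm hj)
      have h5 : ((lam (Function.update 1 k y) (j, b) : Fˣ) : F) = 1 := by
        cases b
        · rw [lam_false, Function.update_of_ne hj, Pi.one_apply, inv_one, Units.val_one]
        · rw [lam_true, Function.update_of_ne hj, Pi.one_apply, Units.val_one]
      rw [a3 _ h3 h4, b3 _ h3 h4, h5, one_smul]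
  · have h3 : ∀ x, polar (oddForm m F) ((toFrame (wodd m F)).b x) w = 0 := fun x => (toFrame (wodd m F)).h0 x w hw
    rw [hmul, a3 _ (h3 _) (h3 _), b3 _ (h3 _) (h3 _), dg_V0 _ _ _ hw, Units.val_one, one_smul]

theorem square_of_mem [Finite F] (h2 : (2 : F) ≠ 0) (hG : OrthTrans.Good (oddForm m F)) (k : Fin m) (y : Fˣ)
    (h : dg (toFrame (wodd m F)) (lam (Function.update 1 k y)) 1 ∈ E (oddForm m F)) : IsSquare y := by
  classical
  have h1 : (oddForm m F) ((toFrame (wodd m F)).b (k, true) - (1 : F) • (toFrame (wodd m F)).b (k, false)) ≠ 0 := by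
    rw [QO_ef]
    exact neg_ne_zero.2 one_ne_zero
  have hy : (oddForm m F) ((toFrame (wodd m F)).b (k, true) - ((y⁻¹ : Fˣ) : F) • (toFrame (wodd m F)).b (k, false)) ≠ 0 := by
    rw [QO_ef]
    exact neg_ne_zero.2 (y⁻¹).ne_zero
  rw [← last_eq k y h1 hy] at h
  have h3 := char_E hG th h
  rw [map_mul, th_rO h2, th_rO h2, QO_ef, QO_ef] at h3
  have e1 : IsSquare (-1 * -1 : F) := ⟨1, by ring⟩
  rw [if_pos e1] at h3
  by_cases hs : IsSquare (-1 * -((y⁻¹ : Fˣ) : F))
  · obtain ⟨z, hz⟩ := hs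
    have hz' : ((y⁻¹ : Fˣ) : F) = z * z := by rw [← hz]; ring
    have hz0 : z ≠ 0 := by
      rintro rfl
      exact (y⁻¹).ne_zero (by rw [hz', zero_mul])
    refine ⟨(Units.mk0 z hz0)⁻¹, ?_⟩
    rw [← mul_inv, ← inv_inj, inv_inv]
    exact Units.ext hz'
  · rw [if_neg hs] at h3
    exact absurd h3 (by decide)

end spinor

/-! ### The coroots generate the torus -/

section gen

variable [Finite F]

/-- elements of the torus are diagonal -/
theorem tor_dg {g : (Unit ⊕ (Fin m ⊕ Fin m) → F) ≃ₗ[F] (Unit ⊕ (Fin m ⊕ Fin m) → F)} (hG : OrthTrans.Good (oddForm m F))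
    (h2 : (2 : F) ≠ 0) (hg : g ∈ Tor (toFrame (wodd m F)) (E (oddForm m F))) : ∃ l : Fin m → Fˣ, g = dg (toFrame (wodd m F)) (lam l) 1 := by
  obtain ⟨hg, hm⟩ := hg
  have hA := amb_O_of_two (wodd m F) h2
  have hη : ∀ x : Fin m × Bool, (toFrame (wodd m F)).η x = 1 := fun x => by unfold Frame.η; split_ifs <;> rfl
  have hm' := hm
  choose l hl0 hl using hm'
  have hl' : ∀ k, l (k, true) * l (k, false) = 1 := by
    intro k
    have h1 := hA.iso g hg ((toFrame (wodd m F)).b (k, true)) ((toFrame (wodd m F)).b (k, false))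
    rw [hl, hl] at h1
    simp only [id] at h1
    have h3 : (HO (oddForm m F)).h ((toFrame (wodd m F)).b (k, true)) ((toFrame (wodd m F)).b (k, false)) = 1 := ((toFrame (wodd m F)).hb_self_neg (k, true)).trans (hη _)
    rw [HForm.smul_right, HForm.smul_left, h3, mul_one] at h1
    have h4 : (HO (oddForm m F)).σ (l (k, false)) = l (k, false) := rfl
    rw [h4] at h1
    rw [mul_comm]
    exact h1
  let L : Fin m → Fˣ := fun k => Units.mk0 (l (k, true)) (hl0 _)
  have hL : ∀ x, g ((toFrame (wodd m F)).b x) = (lam L x : F) • (toFrame (wodd m F)).b x := by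
    rintro ⟨k, b⟩
    rw [hl]
    congr 1
    cases b
    · rw [lam_false, Units.val_inv_eq_inv_val]
      exact eq_inv_of_mul_eq_one_right (hl' k)
    · rfl
  have h0 : g (Pi.single (Sum.inl ()) 1) ∈ (toFrame (wodd m F)).V0 := hA.map_V0 hg hm (ρ := id) (fun _ => rfl) (single_V0 m F)
  have h1 := V0_span h0
  set μ : F := g (Pi.single (Sum.inl ()) 1) (Sum.inl ()) with hμ
  have h3 := diag_det (single_of (s := fun x => (lam L x : F)) (s0 := μ) hL h1)
  rw [det_E hG hg, Fintype.prod_sum_type, Fintype.prod_sum_type] at h3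
  simp only [wc, Sum.elim_inl, Sum.elim_inr, lam_true, lam_false] at h3
  rw [← Finset.prod_mul_distrib, Finset.prod_eq_one (s := Finset.univ) (f := fun i => ((L i : Fˣ) : F) * ((L i)⁻¹ : Fˣ)),
    mul_one] at h3
  swap
  · intro i _
    rw [← Units.val_mul, mul_inv_cancel, Units.val_one]
  have h4 : μ = 1 := by
    rw [Finset.prod_const, Finset.card_univ] at h3
    simpa using h3.symm
  refine ⟨L, ext_b hA.V0 (fun x => ?_) fun w hw => ?_⟩
  · rw [hL, dg_b]
  · rw [dg_V0 _ _ _ hw, Units.val_one, one_smul, V0_span hw, map_smul, h1, h4, one_smul]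

theorem co_last (hm : 0 < m) (z : Fˣ) : cc (co (⟨m - 1, by omega⟩ : Fin m)) z =
    lam (Function.update 1 (⟨m - 1, by omega⟩ : Fin m) (z * z)) := by
  unfold cc
  congr 1
  funext k
  unfold co
  by_cases hk : k = ⟨m - 1, by omega⟩
  · rw [if_pos hk, if_pos (by simp only; omega), hk, Function.update_self, zpow_two]
  · have hk' : (k : ℕ) ≠ m - 1 := fun h => hk (Fin.ext h)
    have := k.2
    rw [if_neg hk, if_neg (by simp only; omega), zpow_zero, Function.update_of_ne hk, Pi.one_apply]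

theorem gen_O (h2 : (2 : F) ≠ 0) (hG : OrthTrans.Good (oddForm m F)) (hp : ∃ p : (toFrame (wodd m F)).Adm, p.c ≠ 0) (hm : 0 < m) : ∀ g ∈ Tor (toFrame (wodd m F)) (E (oddForm m F)),
    g ∈ Subgroup.closure {y | ∃ (j : Fin m) (x : Fˣ), y = dg (toFrame (wodd m F)) (cc (co j) x) 1} := by
  intro g hg
  obtain ⟨l, e⟩ := tor_dg hG h2 hg
  set C := Subgroup.closure {y | ∃ (j : Fin m) (x : Fˣ), y = dg (toFrame (wodd m F)) (cc (co j) x) 1} with hC
  have hA := amb_O_of_two (wodd m F) h2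
  obtain ⟨p, hp⟩ := hp
  have hCE : C ≤ E (oddForm m F) := by
    rw [hC, Subgroup.closure_le]
    rintro _ ⟨j, x, rfl⟩
    exact co_mem (model (wodd m F) hG ⟨p, hp⟩) (fun _ => rfl) hA.V0 hp j x
  obtain ⟨c, hc, y, ey⟩ := exists_last (Fr := toFrame (wodd m F)) hm (C := C) (fun j _ x => Subgroup.subset_closure ⟨j, x, rfl⟩) l
  have hD : dg (toFrame (wodd m F)) (lam (Function.update 1 (⟨m - 1, by omega⟩ : Fin m) y)) 1 ∈ E (oddForm m F) := by
    have h1 : dg (toFrame (wodd m F)) (lam (Function.update 1 (⟨m - 1, by omega⟩ : Fin m) y)) 1 = c⁻¹ * g := by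
      rw [e, ey, inv_mul_cancel_left]
    rw [h1]
    exact mul_mem (inv_mem (hCE hc)) hg.1
  obtain ⟨z, rfl⟩ := square_of_mem h2 hG _ y hD
  rw [e, ey, ← co_last hm z]
  exact mul_mem hc (Subgroup.subset_closure ⟨_, z, rfl⟩)

end gen

/-- **The torus data of `POmega_{2m+1}`.** -/
theorem td_O [Finite F] (h2 : (2 : F) ≠ 0) (hG : OrthTrans.Good (oddForm m F)) (hp : ∃ p : (toFrame (wodd m F)).Adm, p.c ≠ 0) (hm : 0 < m)
    (hσ : ∀ x, (HO (oddForm m F)).σ x = x) (hA : Amb (toFrame (wodd m F)) (model (wodd m F) hG hp).I) {p p0 : (toFrame (wodd m F)).Adm} (hq : p.c ≠ 0)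
    (hp0 : p0.c ≠ 0) :
    TD (WittModel.T (model (wodd m F) hG hp)) (WittModel.nw (model (wodd m F) hG hp) hA p0) (Ap true m)
      (hh (model (wodd m F) hG hp) hσ hA hq) :=
  td_of _ hσ hA hq hp0 (gen_O h2 hG hp hm)

/-! ### Conjugation by elements of `O Q` -/

section conj

variable {ι : Type} [Fintype ι] [DecidableEq ι] {Q : QuadraticForm F (ι → F)}

/-- conjugation on `E Q` by an element of `O Q` -/
def cE (s : O Q) : E Q →* E Q where
  toFun g := ⟨s.1 * g.1 * s.1⁻¹, conj_mem_E s.2 g.2⟩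
  map_one' := Subtype.ext (by show s.1 * 1 * s.1⁻¹ = 1; rw [mul_one, mul_inv_cancel])
  map_mul' g k := Subtype.ext (by
    show s.1 * (g.1 * k.1) * s.1⁻¹ = s.1 * g.1 * s.1⁻¹ * (s.1 * k.1 * s.1⁻¹)
    group)

theorem coe_cE (s : O Q) (g : E Q) : (cE s g).1 = s.1 * g.1 * s.1⁻¹ := rfl

theorem cE_ker (hG : OrthTrans.Good Q) (s : O Q) : (toPOmega hG).ker ≤ ((toPOmega hG).comp (cE s)).ker := by
  intro g hg
  obtain ⟨c, hc⟩ := scalar_of_center hG (center_of_toPOmega hG (MonoidHom.mem_ker.1 hg))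
  rw [MonoidHom.mem_ker, MonoidHom.comp_apply]
  have h1 : cE s g = g := by
    apply Subtype.ext
    rw [coe_cE, mul_inv_eq_iff_eq_mul]
    ext1 v
    change s.1 (g.1 v) = g.1 (s.1 v)
    rw [hc, hc, map_smul]
  rw [h1]
  exact MonoidHom.mem_ker.1 hg

/-- on `POmega` -/
noncomputable def lO (hG : OrthTrans.Good Q) (s : O Q) : Cfsg.POmega F ⇑Q →* Cfsg.POmega F ⇑Q :=
  (toPOmega hG).liftOfSurjective (toPOmega_surjective hG) ⟨(toPOmega hG).comp (cE s), cE_ker hG s⟩

theorem lO_apply (hG : OrthTrans.Good Q) (s : O Q) (g : E Q) : lO hG s (toPOmega hG g) = toPOmega hG (cE s g) :=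
  MonoidHom.liftOfRightInverse_comp_apply _ _ _ _ g

theorem lO_lO (hG : OrthTrans.Good Q) (s : O Q) : (lO hG s⁻¹).comp (lO hG s) = MonoidHom.id _ := by
  refine MonoidHom.ext fun y => ?_
  obtain ⟨g, rfl⟩ := toPOmega_surjective hG y
  rw [MonoidHom.comp_apply, lO_apply, lO_apply, MonoidHom.id_apply]
  congr 1
  apply Subtype.ext
  rw [coe_cE, coe_cE]
  show s.1⁻¹ * (s.1 * g.1 * s.1⁻¹) * s.1⁻¹⁻¹ = g.1
  group

/-- **the automorphism** induced by `s` -/
noncomputable def dO (hG : OrthTrans.Good Q) (s : O Q) : Cfsg.POmega F ⇑Q ≃* Cfsg.POmega F ⇑Q :=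
  MonoidHom.toMulEquiv (lO hG s) (lO hG s⁻¹) (lO_lO hG s) (by
    have := lO_lO hG s⁻¹
    rwa [inv_inv] at this)

theorem dO_apply (hG : OrthTrans.Good Q) (s : O Q) (g : E Q) : dO hG s (toPOmega hG g) = toPOmega hG (cE s g) :=
  lO_apply hG s g

end conj

theorem conj_rg {V : Type*} [AddCommGroup V] [Module F V] {H : HForm F V} {n : ℕ} {Fr : Frame H (Fin n)}
    {G0 : Subgroup (V ≃ₗ[F] V)} (hA : Amb Fr G0) {s : V ≃ₗ[F] V} (hs : s ∈ G0) (hm : Mono Fr s id) (x : Fin n → ℤ)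
    {u : V ≃ₗ[F] V} (hu : u ∈ rg Fr x) : s * u * s⁻¹ ∈ rg Fr x := by
  have h1 : rg Fr x ≤ (rg Fr x).comap (MulAut.conj s).toMonoidHom := by
    refine iSup_le fun q u hu => ?_
    have h2 := hA.cj_id hs hm q.2.1
    have h3 : s * u * s⁻¹ ∈ cj s (PG Fr q.1.1 q.1.2) := conj_mem_cj.2 hu
    rw [h2] at h3
    exact le_iSup (fun q : {q : (Fin n × Bool) × (Fin n × Bool) // Ok q.1 q.2 ∧ ee x = wt q.1 + wt q.2} =>
      PG Fr q.1.1 q.1.2) q h3
  exact h1 hu

theorem amb_OO (h2 : (2 : F) ≠ 0) : Amb (toFrame (wodd m F)) (O (oddForm m F)) := by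
  refine amb_of (wodd m F) _ (fun g hg v w => polar_map hg v w) ?_ (fun a b t => E_le_O (X_mem _ a b t))
    (fun a p => E_le_O (Z_mem _ a p)) ?_
  · intro g hg w c h
    have h3 : c = -(oddForm m F) w := h
    show c = -(oddForm m F) (g w)
    rw [h3, mem_O.1 hg]
  · intro w _ h
    refine (sing_iff (oddForm m F)).2 ?_
    have h' : polar (oddForm m F) w w = 0 := h
    rw [OrthCore.polar_self'] at h'
    exact (mul_eq_zero.1 h').resolve_left h2

/-! ### The fundamental coweights -/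

/-- the fundamental coweights in `O Q` -/
noncomputable def sh (j : Fin m) (x : Fˣ) : O (oddForm m F) := ⟨dg (toFrame (wodd m F)) (cc (cw j) x) 1, dg_mem_O _⟩

theorem coe_sh (j : Fin m) (x : Fˣ) : (sh j x : O (oddForm m F)).1 = dg (toFrame (wodd m F)) (cc (cw j) x) 1 := rfl

/-- the automorphisms -/
noncomputable def dd (hG : OrthTrans.Good (oddForm m F)) (j : Fin m) (x : Fˣ) : Cfsg.POmega F ⇑(oddForm m F) ≃* Cfsg.POmega F ⇑(oddForm m F) :=
  dO hG (sh j x)

theorem dd_apply (hG : OrthTrans.Good (oddForm m F)) (j : Fin m) (x : Fˣ) (g : E (oddForm m F)) :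
    dd hG j x (toPOmega hG g) = toPOmega hG (cE (sh j x) g) := dO_apply hG _ g

section dd

variable (hG : OrthTrans.Good (oddForm m F)) (hp : ∃ p : (toFrame (wodd m F)).Adm, p.c ≠ 0) (hA : Amb (toFrame (wodd m F)) (model (wodd m F) hG hp).I)

/-- conjugation on the ambient group of the model -/
noncomputable def cM (s : O (oddForm m F)) : (model (wodd m F) hG hp).I →* (model (wodd m F) hG hp).I := cE s

theorem coe_cM (s : O (oddForm m F)) (g : (model (wodd m F) hG hp).I) : (cM hG hp s g).1 = s.1 * g.1 * s.1⁻¹ := rfl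

/-- **the formula for `dd`** -/
theorem dd_φ (j : Fin m) (x : Fˣ) (g : (model (wodd m F) hG hp).I) :
    dd hG j x ((model (wodd m F) hG hp).φ g) = (model (wodd m F) hG hp).φ (cM hG hp (sh j x) g) := dO_apply hG _ g

include hA in
theorem dd_T (j : Fin m) (x : Fˣ) {t : Cfsg.POmega F ⇑(oddForm m F)} (ht : t ∈ WittModel.T (model (wodd m F) hG hp)) :
    dd hG j x t = t := by
  obtain ⟨g, hg, rfl⟩ := ht
  rw [dd_φ]
  congr 1
  obtain ⟨hg1, hg2⟩ := Subgroup.mem_subgroupOf.1 hg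
  apply Subtype.ext
  rw [coe_cM, coe_sh, mul_inv_eq_iff_eq_mul]
  refine ext_b hA.V0 (fun z => ?_) fun w hw => ?_
  · obtain ⟨l, -, e⟩ := hg2 z
    have e' : g.1 ((toFrame (wodd m F)).b z) = l • (toFrame (wodd m F)).b z := e
    rw [mul_apply', mul_apply', e', map_smul, dg_b, map_smul, e', smul_smul, smul_smul, mul_comm]
  · have h1 : g.1 w ∈ (toFrame (wodd m F)).V0 := hA.map_V0 hg1 hg2 (ρ := id) (fun _ => rfl) hw
    rw [mul_apply', mul_apply', dg_V0 _ _ _ hw, dg_V0 _ _ _ h1, Units.val_one, one_smul, one_smul]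

theorem dd_X (h2 : (2 : F) ≠ 0) (j : Fin m) (x : Fˣ) (r : Fin m → ℤ) {u : Cfsg.POmega F ⇑(oddForm m F)}
    (hu : u ∈ WittModel.X (model (wodd m F) hG hp) r) : dd hG j x u ∈ WittModel.X (model (wodd m F) hG hp) r := by
  obtain ⟨g, hg, hg2, rfl⟩ := (WittModel.mem_X _).1 hu
  rw [dd_φ]
  exact WittModel.mem_X_of _ _ (conj_rg (amb_OO h2) (sh j x).2 (mono_dg _ _ _) r hg2)

theorem dd_nw (j : Fin m) (x : Fˣ) {p0 : (toFrame (wodd m F)).Adm} (hp0 : p0.c ≠ 0) (i : Fin m) :
    ∃ g : (model (wodd m F) hG hp).I, g.1 = dg (toFrame (wodd m F)) (cc (if i = j then co j else 0) x) 1 ∧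
      (WittModel.nw (model (wodd m F) hG hp) hA p0 i)⁻¹ * dd hG j x (WittModel.nw (model (wodd m F) hG hp) hA p0 i) =
        (model (wodd m F) hG hp).φ g := by
  unfold WittModel.nw
  rw [dd_φ, ← map_inv, ← map_mul]
  exact ⟨_, cw_nn (model (wodd m F) hG hp) hA hp0 i j x, rfl⟩

theorem dd_nw_self (hσ : ∀ x, (HO (oddForm m F)).σ x = x) {p p0 : (toFrame (wodd m F)).Adm} (hq : p.c ≠ 0) (hp0 : p0.c ≠ 0) (j : Fin m) (x : Fˣ) :
    (WittModel.nw (model (wodd m F) hG hp) hA p0 j)⁻¹ * dd hG j x (WittModel.nw (model (wodd m F) hG hp) hA p0 j) =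
      hh (model (wodd m F) hG hp) hσ hA hq j x := by
  obtain ⟨g, hg, e⟩ := dd_nw hG hp hA j x hp0 j
  rw [if_pos rfl] at hg
  rw [e, hh_eq _ hσ hA hq j x hg]

theorem dd_nw_ne {p0 : (toFrame (wodd m F)).Adm} (hp0 : p0.c ≠ 0) {i j : Fin m} (hij : i ≠ j) (x : Fˣ) :
    dd hG j x (WittModel.nw (model (wodd m F) hG hp) hA p0 i) = WittModel.nw (model (wodd m F) hG hp) hA p0 i := by
  obtain ⟨g, hg, e⟩ := dd_nw hG hp hA j x hp0 i
  rw [if_neg hij, cc_zero, dg_one] at hg
  have hg' : g = 1 := Subtype.ext hg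
  rw [hg', map_one, inv_mul_eq_one] at e
  exact e.symm

variable {W : Type*} [Group W] (cs : CoxeterSystem (CoxeterMatrix.B m) W)

theorem dia_dd (h2 : (2 : F) ≠ 0) {p0 : (toFrame (wodd m F)).Adm} (hp0 : p0.c ≠ 0) (j : Fin m) (x : Fˣ) :
    Dia cs (isCartan m) (WittModel.T (model (wodd m F) hG hp)) (WittModel.nw (model (wodd m F) hG hp) hA p0)
      (WittModel.X (model (wodd m F) hG hp)) (dd hG j x) where
  tor t ht := dd_T hG hp hA j x ht
  root r _ u hu := dd_X hG hp h2 j x r hu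
  nn i := by
    obtain ⟨g, hg, e⟩ := dd_nw hG hp hA j x hp0 i
    rw [e]
    refine Subgroup.mem_map_of_mem _ (Subgroup.mem_subgroupOf.2 ⟨g.2, ?_⟩)
    rw [hg]
    exact mono_dg _ _ _

/-- **`HD` from the conjugacy of `t` and its images in `L_J`.** -/
theorem hd_of (h2 : (2 : F) ≠ 0) (hσ : ∀ x, (HO (oddForm m F)).σ x = x) {p p0 : (toFrame (wodd m F)).Adm} (hq : p.c ≠ 0) (hp0 : p0.c ≠ 0)
    {J : Set (Fin m)} {t : Cfsg.POmega F ⇑(oddForm m F)}
    (h : ∀ (j : Fin m) (x : Fˣ), ∃ a ∈ Bruhat.LJ cs (isCartan m) (WittModel.T (model (wodd m F) hG hp))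
      (WittModel.X (model (wodd m F) hG hp)) J, dd hG j x t = a * t * a⁻¹) :
    HD cs (isCartan m) (WittModel.T (model (wodd m F) hG hp)) (WittModel.nw (model (wodd m F) hG hp) hA p0)
      (WittModel.X (model (wodd m F) hG hp)) (hh (model (wodd m F) hG hp) hσ hA hq) J t := fun j x =>
  ⟨dd hG j x, dia_dd hG hp hA cs h2 hp0 j x, dd_nw_self hG hp hA hσ hq hp0 j x, fun _ hi => dd_nw_ne hG hp hA hp0 hi x,
    h j x⟩

end dd

end Om

end Cfsg.Agent.H644.OZ
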