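import Cfsg.Agent.H644.OZ.Dg
import Cfsg.Agent.Nodes.WittInst
import Cfsg.Agent.ClassicalGeometry.SpinorSign
import Cfsg.Agent.H200.VZ.Dat

/-!
# S4842: coroots of type `B` in a model on a Witt frame, `σ = 1` (helper644)

* `hh M hσ hA hp j : Fˣ →* K` : the coroots (`b (j, +) ↦ x b (j, +)`, `b (j+1, +) ↦ x⁻¹ b (j+1, +)`, resp. `x²`
  for the last);
* `td_of` : `TD (T M) (nw M hA p0) (Ap true n) hh` if the coroots generate the torus;
* `sh_nn` : the commutators of the fundamental coweights and the Weyl elements.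
-/

set_option autoImplicit false
set_option linter.unusedSectionVars false

namespace Cfsg.Agent.H644.OZ

open Cfsg
open CoxeterSystem Cfsg.Agent.ChevalleyStructure.CoxeterGeom Cfsg.Agent.Tits.Roots Cfsg.Agent.Nodes.TypeC
open Cfsg.Agent.Nodes Cfsg.Agent.Nodes.Comb Cfsg.Agent.Nodes.Reps Cfsg.Agent.Nodes.WittRoot Cfsg.Agent.Nodes.BNOf
open Cfsg.Agent.Nodes.WittRGD Cfsg.Agent.Nodes.RGDLib Cfsg.Agent.Nodes.WittAll
open Cfsg.Agent.TitsThree Cfsg.Agent.TitsThree.Siegel Cfsg.Agent.TitsThree.WittFrame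
  Cfsg.Agent.TitsThree.WittWeyl Cfsg.Agent.TitsThree.FrameCN
open Cfsg.Agent.Nodes.StabComb Cfsg.Agent.Nodes.Bruhat Cfsg.Agent.Nodes.LeviDec
open QuadraticMap Cfsg.Agent.LieClassical Cfsg.Agent.LieClassical.OrthCore Cfsg.Agent.LieClassical.OrthForms
open Cfsg.Agent.LieClassical.OrthFinite
open Cfsg.Agent.TitsThree.KSideO Cfsg.Agent.TitsThree.WBridge Cfsg.Agent.Nodes.WittU Cfsg.Agent.Nodes.WittInst
open Cfsg.Agent.ClassicalGeometry.SpinorSign Cfsg.Agent.ClassicalGeometry.Reflection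
open Cfsg.Agent.H200.VZ

/-! ### General models, `σ = 1` -/

section Gen

variable {F : Type*} [Field F] {V : Type*} [AddCommGroup V] [Module F V] {H : HForm F V} {n : ℕ}
  {Fr : Frame H (Fin n)}

/-- the last Weyl element and the last coroot -/
theorem nX_dg (hσ : ∀ x, H.σ x = x) (hV0 : ∀ v, (∀ x, H.h v (Fr.b x) = 0) → v ∈ Fr.V0) {j : Fin n}
    (hj : (j : ℕ) + 1 < n) (x : Fˣ) :
    dg Fr (cc (co j) x) 1 * nX Fr (j, true) (nx j) 1 = nX Fr (j, true) (nx j) x := by
  have hne : ((j, true) : Fin n × Bool).1 ≠ (nx j).1 := by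
    unfold nx; rw [dif_pos hj]; simp [Fin.ext_iff]
  have hnx : nx j = (⟨j + 1, hj⟩, false) := by unfold nx; rw [dif_pos hj]
  have hjn : (⟨(j : ℕ) + 1, hj⟩ : Fin n) ≠ j := by simp [Fin.ext_iff]
  have c1 : co j j = 1 := by unfold co; rw [if_pos rfl, if_neg (by omega)]
  have c2 : co j ⟨j + 1, hj⟩ = -1 := by unfold co; rw [if_neg hjn, if_pos rfl]
  have c3 : ∀ k : Fin n, k ≠ j → k ≠ ⟨j + 1, hj⟩ → co j k = 0 := by
    intro k h1 h2
    unfold co
    rw [if_neg h1, if_neg fun h => h2 (Fin.ext h)]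
  have hx := x.ne_zero
  refine ext_b hV0 (fun z => ?_) fun w hw => ?_
  · rw [mul_apply']
    obtain ⟨k, b⟩ := z
    by_cases h1 : k = j
    · subst h1
      cases b
      · have e1 : ((k, false) : Fin n × Bool) = neg (k, true) := rfl
        rw [e1, nX_apply_neg' Fr hne one_ne_zero, nX_apply_neg' Fr hne hx, hnx, map_neg, map_smul, dg_b, smul_smul,
          hσ, hσ]
        have : ((cc (co k) x (⟨k + 1, hj⟩, false) : Fˣ) : F) = x := by
          unfold cc
          rw [lam_false, c2, zpow_neg, zpow_one, inv_inv]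
        rw [this]
        congr 2
        ring
      · rw [nX_apply_self Fr hne one_ne_zero, nX_apply_self Fr hne hx, hnx, map_neg, map_smul]
        have e1 : neg ((⟨(k : ℕ) + 1, hj⟩, false) : Fin n × Bool) = (⟨k + 1, hj⟩, true) := rfl
        rw [e1, dg_b, smul_smul]
        have : ((cc (co k) x (⟨k + 1, hj⟩, true) : Fˣ) : F) = (x : F)⁻¹ := by
          unfold cc
          rw [lam_true, c2, zpow_neg, zpow_one, Units.val_inv_eq_inv_val]
        rw [this, inv_one, one_mul]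
    by_cases h2 : k = ⟨j + 1, hj⟩
    · subst h2
      cases b
      · have e1 := nX_apply_self' Fr hne (one_ne_zero (α := F))
        have e2 := nX_apply_self' Fr hne hx
        rw [hnx] at e1 e2
        rw [hnx, e1, e2, map_smul]
        have e3 : neg ((j, true) : Fin n × Bool) = (j, false) := rfl
        rw [e3, dg_b, smul_smul, hσ, hσ]
        have : ((cc (co j) x (j, false) : Fˣ) : F) = (x : F)⁻¹ := by
          unfold cc
          rw [lam_false, c1, zpow_one, Units.val_inv_eq_inv_val]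
        rw [this]
        congr 1
        simp only [mul_one, mul_inv]
      · have e1 := nX_apply_neg Fr hne (one_ne_zero (α := F))
        have e2 := nX_apply_neg Fr hne hx
        rw [hnx] at e1 e2
        have e3 : neg ((⟨(j : ℕ) + 1, hj⟩, false) : Fin n × Bool) = (⟨j + 1, hj⟩, true) := rfl
        rw [e3] at e1 e2
        rw [hnx, e1, e2, map_smul, dg_b, one_smul]
        have : ((cc (co j) x (j, true) : Fˣ) : F) = (x : F) := by
          unfold cc
          rw [lam_true, c1, zpow_one]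
        rw [this]
    · have g1 : ((k, b) : Fin n × Bool).1 ≠ ((j, true) : Fin n × Bool).1 := h1
      have g2 : ((k, b) : Fin n × Bool).1 ≠ (nx j).1 := by rw [hnx]; exact h2
      rw [nX_apply_of_ne Fr hne g1 g2, nX_apply_of_ne Fr hne g1 g2, dg_b]
      have : ((cc (co j) x (k, b) : Fˣ) : F) = 1 := by
        unfold cc
        cases b
        · rw [lam_false, c3 k h1 h2, zpow_zero, inv_one, Units.val_one]
        · rw [lam_true, c3 k h1 h2, zpow_zero, Units.val_one]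
      rw [this, one_smul]
  · rw [mul_apply', nX_apply_V0 Fr hne hw, nX_apply_V0 Fr hne hw, dg_V0 Fr _ _ hw, Units.val_one, one_smul]

theorem nZ_dg (hσ : ∀ x, H.σ x = x) (hV0 : ∀ v, (∀ x, H.h v (Fr.b x) = 0) → v ∈ Fr.V0) {j : Fin n}
    (hj : (j : ℕ) + 1 = n) {p : Fr.Adm} (hp : p.c ≠ 0) (x : Fˣ) :
    dg Fr (cc (co j) x) 1 * nZ Fr (j, true) p = nZ Fr (j, true) (Frame.Adm.smul (x : F) p) := by
  have hx := x.ne_zero
  have hq : (Frame.Adm.smul (x : F) p).c = x * x * p.c := by rw [Frame.Adm.smul_c, hσ]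
  have hq0 : (Frame.Adm.smul (x : F) p).c ≠ 0 := by
    rw [hq]
    exact mul_ne_zero (mul_ne_zero hx hx) hp
  have hw0 : (Frame.Adm.smul (x : F) p).w = (x : F) • p.w := rfl
  have c1 : co j j = 2 := by unfold co; rw [if_pos rfl, if_pos hj]
  have c3 : ∀ k : Fin n, k ≠ j → co j k = 0 := by
    intro k h1
    unfold co
    have := k.2
    rw [if_neg h1, if_neg (by omega)]
  refine ext_b hV0 (fun z => ?_) fun w hw => ?_
  · rw [mul_apply']
    obtain ⟨k, b⟩ := z
    by_cases h1 : k = j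
    · subst h1
      cases b
      · have e1 : ((k, false) : Fin n × Bool) = neg (k, true) := rfl
        rw [e1, nZ_apply_neg Fr _ _ hp, nZ_apply_neg Fr _ _ hq0, map_smul, dg_b, smul_smul, hq]
        have : ((cc (co k) x (k, true) : Fˣ) : F) = x * x := by
          unfold cc
          rw [lam_true, c1, zpow_two, Units.val_mul]
        rw [this]
        congr 1
        ring
      · rw [nZ_apply_self Fr _ _ hp, nZ_apply_self Fr _ _ hq0, map_smul, hσ, hσ, hq]
        have e1 : neg ((k, true) : Fin n × Bool) = (k, false) := rfl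
        rw [e1, dg_b, smul_smul]
        have : ((cc (co k) x (k, false) : Fˣ) : F) = (x * x : F)⁻¹ := by
          unfold cc
          rw [lam_false, c1, zpow_two, Units.val_inv_eq_inv_val, Units.val_mul]
        rw [this]
        congr 1
        rw [mul_inv (x * x : F)]
        ring
    · have g1 : ((k, b) : Fin n × Bool).1 ≠ ((j, true) : Fin n × Bool).1 := h1
      rw [nZ_apply_of_ne Fr g1, nZ_apply_of_ne Fr g1, dg_b]
      have : ((cc (co j) x (k, b) : Fˣ) : F) = 1 := by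
        unfold cc
        cases b
        · rw [lam_false, c3 k h1, zpow_zero, inv_one, Units.val_one]
        · rw [lam_true, c3 k h1, zpow_zero, Units.val_one]
      rw [this, one_smul]
  · rw [mul_apply', nZ_apply_V0 Fr _ _ hp hw, nZ_apply_V0 Fr _ _ hq0 hw, hq, hw0]
    have hV : w + (H.ε⁻¹ * p.c⁻¹ * H.h w p.w) • p.w ∈ Fr.V0 :=
      Fr.V0.add_mem hw (Fr.V0.smul_mem _ (Fr.ok_mem p.ok))
    rw [dg_V0 Fr _ _ hV, Units.val_one, one_smul, H.smul_right, hσ, smul_smul]
    congr 2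
    field_simp

variable {K : Type*} [Group K] (M : Model Fr K)

/-- the coroots are in the ambient group -/
theorem co_mem (hσ : ∀ x, H.σ x = x) (hV0 : ∀ v, (∀ x, H.h v (Fr.b x) = 0) → v ∈ Fr.V0) {p : Fr.Adm} (hp : p.c ≠ 0)
    (j : Fin n) (x : Fˣ) : dg Fr (cc (co j) x) 1 ∈ M.I := by
  have hX : ∀ a b t, nX Fr a b t ∈ M.I := fun a b t => mul_mem (mul_mem (M.hX _ _ _) (M.hX _ _ _)) (M.hX _ _ _)
  have hZ : ∀ a p, nZ Fr a p ∈ M.I := fun a p => mul_mem (mul_mem (M.hZ _ _) (M.hZ _ _)) (M.hZ _ _)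
  by_cases hj : (j : ℕ) + 1 < n
  · have h1 := nX_dg hσ hV0 hj x
    rw [← eq_mul_inv_iff_mul_eq] at h1
    rw [h1]
    exact mul_mem (hX _ _ _) (inv_mem (hX _ _ _))
  · have hj' : (j : ℕ) + 1 = n := by have := j.2; omega
    have h1 := nZ_dg hσ hV0 hj' hp x
    rw [← eq_mul_inv_iff_mul_eq] at h1
    rw [h1]
    exact mul_mem (hZ _ _) (inv_mem (hZ _ _))

/-- `φ` is surjective -/
theorem φ_surj (hn : 0 < n) : Function.Surjective M.φ := by
  rw [← MonoidHom.range_eq_top]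
  exact M.gen ⟨0, hn⟩ _ (fun i j _ t => ⟨⟨_, rfl⟩, ⟨_, rfl⟩⟩) fun p => ⟨⟨_, rfl⟩, ⟨_, rfl⟩⟩

/-! ### The coroots in `K` -/

section hh

variable (hσ : ∀ x, H.σ x = x) (hA : Amb Fr M.I) {p : Fr.Adm} (hp : p.c ≠ 0)

/-- **the coroots** -/
noncomputable def hh (j : Fin n) : Fˣ →* K where
  toFun x := M.φ ⟨dg Fr (cc (co j) x) 1, co_mem M hσ hA.V0 hp j x⟩
  map_one' := by
    rw [← map_one M.φ]
    congr 1
    apply Subtype.ext
    show dg Fr (cc (co j) 1) 1 = 1
    rw [cc_one, dg_one]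
  map_mul' x y := by
    rw [← map_mul M.φ]
    congr 1
    apply Subtype.ext
    show dg Fr (cc (co j) (x * y)) 1 = dg Fr (cc (co j) x) 1 * dg Fr (cc (co j) y) 1
    rw [cc_mul, ← dg_mul, mul_one]

theorem hh_apply (j : Fin n) (x : Fˣ) :
    hh M hσ hA hp j x = M.φ ⟨dg Fr (cc (co j) x) 1, co_mem M hσ hA.V0 hp j x⟩ := rfl

/-- a variant with an arbitrary representative -/
theorem hh_eq (j : Fin n) (x : Fˣ) {g : M.I} (hg : g.1 = dg Fr (cc (co j) x) 1) : hh M hσ hA hp j x = M.φ g := by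
  rw [hh_apply]
  congr 1
  exact Subtype.ext hg.symm

theorem dg_pow (s : Fin n × Bool → Fˣ) (k : ℤ) : dg Fr (s ^ k) 1 = (dg Fr s 1) ^ k := by
  let f : (Fin n × Bool → Fˣ) →* (V ≃ₗ[F] V) :=
    { toFun := fun s => dg Fr s 1
      map_one' := dg_one Fr
      map_mul' := fun s s' => by rw [← dg_mul, mul_one] }
  exact map_zpow f s k

theorem Ap_eq (j i : Fin n) : Ap true n j i = prB j i := by
  unfold Ap prB
  simp

include M hA in
theorem nn_V0 {p0 : Fr.Adm} (hp0 : p0.c ≠ 0) (i : Fin n) {w : V} (hw : w ∈ Fr.V0) : nn Fr p0 i w ∈ Fr.V0 :=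
  hA.map_V0 (nn_mem hA p0 i) (mono_nn hp0 i) (ρ := sg i) (sg_sg i) hw

include M hA in
theorem conj_nn {p0 : Fr.Adm} (hp0 : p0.c ≠ 0) (i : Fin n) (e : Fin n → ℤ) (x : Fˣ) :
    (nn Fr p0 i)⁻¹ * dg Fr (cc e x) 1 * nn Fr p0 i = dg Fr (cc (sE i e) x) 1 := by
  rw [conj_dg hA.V0 (mono_nn hp0 i) (fun w hw => nn_V0 M hA hp0 i hw), cc_sg]

/-- **the torus data**, from the generation of the torus by the coroots -/
theorem td_of {p0 : Fr.Adm} (hp0 : p0.c ≠ 0)
    (hgen : ∀ g ∈ Tor Fr M.I, g ∈ Subgroup.closure {y | ∃ (j : Fin n) (x : Fˣ), y = dg Fr (cc (co j) x) 1}) :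
    TD (WittModel.T M) (WittModel.nw M hA p0) (Ap true n) (hh M hσ hA hp) where
  mem j x := by
    rw [hh_apply]
    exact Subgroup.mem_map_of_mem _ (Subgroup.mem_subgroupOf.2 ⟨co_mem M hσ hA.V0 hp j x, mono_dg Fr _ _⟩)
  conj i j x := by
    unfold WittModel.nw
    rw [hh_apply, hh_apply, ← map_inv, ← map_mul, ← map_mul, ← map_zpow, ← map_mul]
    congr 1
    apply Subtype.ext
    show (nn Fr p0 i)⁻¹ * dg Fr (cc (co j) x) 1 * nn Fr p0 i =
      dg Fr (cc (co j) x) 1 * (dg Fr (cc (co i) x) 1) ^ (-Ap true n j i)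
    rw [conj_nn M hA hp0, sE_co, Ap_eq, cc_add, cc_smul, ← dg_pow, ← dg_mul, mul_one]
  gen := by
    rintro _ ⟨g, hg, rfl⟩
    have hg' := hgen g.1 (Subgroup.mem_subgroupOf.1 hg)
    set C : Subgroup K := Subgroup.closure {y | ∃ (j : Fin n) (x : Fˣ), y = hh M hσ hA hp j x} with hC
    have h1 : Subgroup.closure {y | ∃ (j : Fin n) (x : Fˣ), y = dg Fr (cc (co j) x) 1} ≤
        (C.comap M.φ).map M.I.subtype := by
      rw [Subgroup.closure_le]
      rintro _ ⟨j, x, rfl⟩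
      exact ⟨⟨_, co_mem M hσ hA.V0 hp j x⟩, Subgroup.subset_closure ⟨j, x, rfl⟩, rfl⟩
    obtain ⟨g', hg2, e⟩ := h1 hg'
    have e' : g' = g := Subtype.ext e
    rw [e'] at hg2
    exact hg2

include M hA in
/-- the fundamental coweights and the Weyl elements -/
theorem cw_nn {p0 : Fr.Adm} (hp0 : p0.c ≠ 0) (i j : Fin n) (x : Fˣ) :
    (nn Fr p0 i)⁻¹ * (dg Fr (cc (cw j) x) 1 * nn Fr p0 i * (dg Fr (cc (cw j) x) 1)⁻¹) =
      dg Fr (cc (if i = j then co j else 0) x) 1 := by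
  have h1 : dg Fr (cc (cw j + if i = j then co j else 0) x) 1 =
      dg Fr (cc (if i = j then co j else 0) x) 1 * dg Fr (cc (cw j) x) 1 := by
    rw [add_comm, cc_add, ← dg_mul, mul_one]
  rw [← mul_assoc, ← mul_assoc, conj_nn M hA hp0, sE_cw, h1, mul_inv_cancel_right]

end hh

end Gen

end Cfsg.Agent.H644.OZ
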