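import Cfsg.Agent.H644.OZ.WNum

/-!
# The numbers of reduced elements in types `A₁, A₂, A₃` and products (S4842, toolkit section 6)
-/

set_option autoImplicit false
set_option linter.unusedSectionVars false

namespace Cfsg.Agent.H644.OZ

open Cfsg.Agent.ChevalleyStructure.CoxeterGeom Cfsg.Agent.Tits.Core Cfsg.Agent.Tits.OppRes
open Cfsg.Agent.Tits.OppRes.Cox Cfsg.Agent.H694

/-- the number of the elements without left descents in `K` and right descents in `K'` -/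
noncomputable def nr {κ Γ : Type*} [Group Γ] (φ : Γ → κ → ℤ) (K K' : Set κ) : ℕ :=
  Nat.card {g : Γ // (∀ k ∈ K, 0 ≤ φ g⁻¹ k) ∧ ∀ k ∈ K', 0 ≤ φ g k}

/-- representatives for `A₁` -/
def S1 : Fin 2 → Finset (Fin 1) := ![∅, {0}]

/-- representatives for `A₂` -/
def S2 : Fin 3 → Finset (Fin 2) := ![∅, {0}, {0, 1}]

/-- representatives for `A₃` -/
def S3 : Fin 5 → Finset (Fin 3) := ![∅, {0}, {0, 2}, {0, 1}, {0, 1, 2}]

theorem card_A1 : ∀ i j : Fin 2, Fintype.card {g : Equiv.Perm (Fin 2) // (∀ k ∈ S1 i, 0 ≤ phiA 1 g⁻¹ k) ∧ ∀ k ∈ S1 j, 0 ≤ phiA 1 g k} =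
    (![![2, 1], ![1, 1]] : Fin 2 → Fin 2 → ℕ) i j := by decide +kernel

theorem card_A2 : ∀ i j : Fin 3, Fintype.card {g : Equiv.Perm (Fin 3) // (∀ k ∈ S2 i, 0 ≤ phiA 2 g⁻¹ k) ∧ ∀ k ∈ S2 j, 0 ≤ phiA 2 g k} =
    (![![6, 3, 1], ![3, 2, 1], ![1, 1, 1]] : Fin 3 → Fin 3 → ℕ) i j := by decide +kernel

theorem card_A3 : ∀ i j : Fin 5, Fintype.card {g : Equiv.Perm (Fin 4) // (∀ k ∈ S3 i, 0 ≤ phiA 3 g⁻¹ k) ∧ ∀ k ∈ S3 j, 0 ≤ phiA 3 g k} =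
    (![![24, 12, 6, 4, 1], ![12, 7, 4, 3, 1], ![6, 4, 3, 2, 1], ![4, 3, 2, 2, 1], ![1, 1, 1, 1, 1]] : Fin 5 → Fin 5 → ℕ) i j := by
  decide +kernel

end Cfsg.Agent.H644.OZ
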