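import Cfsg.Agent.H694.CoxCount

/-!
# Parabolic subgroups `W_J` and their explicit models (S4842, toolkit section 6)

`Model a s φ` : a group `Γ` generated by the involutions `s k`, with the numbers game `φ : Γ → κ → ℤ` of the Cartan
matrix `a` started at `(1, …, 1)`. For `J = j (κ)` with `A (j k) (j l) = a k l`:

* `exists_equiv` : `W_J ≃* Γ`, `s_{j k} ↦ s k`, and the descents in `J` are the signs of `φ`;
* `card_eq`      : the number of the `w ∈ W_J` without left descent in `j K` and right descent in `j K'`;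
* `model_A`      : `Γ = S_{r+1}`, `φ g k = g (k+1) - g k`;
* `Model.prod`   : products.
-/

set_option autoImplicit false
set_option linter.unusedSectionVars false

namespace Cfsg.Agent.H644.OZ

open Cfsg.Agent.ChevalleyStructure.CoxeterGeom Cfsg.Agent.Tits.Core Cfsg.Agent.Tits.OppRes
open Cfsg.Agent.Tits.OppRes.Cox Cfsg.Agent.H694

/-- a model of the Weyl group of the Cartan matrix `a`: `φ g` is the transform of the regular functional by `g` -/
structure Model {κ Γ : Type*} [Group Γ] (a : κ → κ → ℤ) (s : κ → Γ) (φ : Γ → κ → ℤ) : Prop where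
  one : ∀ k, φ 1 k = 1
  step : ∀ g k l, φ (g * s k) l = φ g l - a k l * φ g k
  sq : ∀ k, s k * s k = 1
  inj : ∀ g, (∀ k, φ g k = 1) → g = 1
  gen : Subgroup.closure (Set.range s) = ⊤

section

variable {B : Type*} [Fintype B] [DecidableEq B] {W : Type*} [Group W] [Finite W] {M : CoxeterMatrix B}
  (cs : CoxeterSystem M W) {A : B → B → ℤ} (h : IsCartan M A)

omit [Finite W] in
/-- the sign of the regular functional -/
theorem lt_iff_mv (w : W) (i : B) :
    cs.length w < cs.length (w * cs.simple i) ↔ 0 ≤ mv cs h w (fun _ => 1) i := by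
  have hm : mv cs h w (fun _ => 1) i = ∑ j, rep cs h w (Pi.single i 1) j := by
    unfold mv fn
    exact Finset.sum_congr rfl fun j _ => mul_one _
  rw [hm]
  have hne := rep_single_ne_zero cs h w i
  obtain ⟨j, hj⟩ := Function.ne_iff.1 hne
  constructor
  · intro h1
    have h2 := (lt_iff' cs h w i).1 h1
    exact Finset.sum_nonneg fun k _ => h2 k
  · intro h1
    rw [lt_iff' cs h]
    rcases nonneg_or_nonpos cs h w i with h2 | h2
    · exact h2
    · exfalso
      have h3 : ∑ k, rep cs h w (Pi.single i 1) k < 0 :=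
        Finset.sum_neg' (fun k _ => h2 k) ⟨j, Finset.mem_univ j, lt_of_le_of_ne (h2 j) hj⟩
      omega

variable {κ : Type*} {Γ : Type*} [Group Γ] {j : κ → B} {a : κ → κ → ℤ} {s : κ → Γ} {φ : Γ → κ → ℤ}

/-- the graph of the isomorphism -/
def Gr (j : κ → B) (s : κ → Γ) : Subgroup (W × Γ) := Subgroup.closure (Set.range fun k => (cs.simple (j k), s k))

variable (hM : Model a s φ) (ha : ∀ k l, A (j k) (j l) = a k l)

include hM ha in
omit [Finite W] in
theorem mv_of_mem {x : W × Γ} (hx : x ∈ Gr cs j s) (k : κ) :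
    mv cs h x.1 (fun _ => 1) (j k) = φ x.2 k := by
  have key : ∀ (y : W × Γ) (m : κ), (∀ k, mv cs h y.1 (fun _ => 1) (j k) = φ y.2 k) →
      ∀ k, mv cs h (y * (cs.simple (j m), s m)).1 (fun _ => 1) (j k) = φ (y * (cs.simple (j m), s m)).2 k := by
    intro y m hy k
    rw [Prod.fst_mul, Prod.snd_mul, mv_mul, mv_simple, hM.step]
    show mv cs h y.1 (fun _ => 1) (j k) - A (j m) (j k) * mv cs h y.1 (fun _ => 1) (j m) = _
    rw [hy, hy, ha]
  induction hx using Subgroup.closure_induction_right generalizing k with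
  | one =>
    rw [Prod.fst_one, Prod.snd_one, mv_one, hM.one]
  | mul_right x y _ hy ih =>
    obtain ⟨m, rfl⟩ := hy
    exact key x m ih k
  | mul_inv_cancel x y _ hy ih =>
    obtain ⟨m, rfl⟩ := hy
    have h1 : ((cs.simple (j m), s m) : W × Γ)⁻¹ = (cs.simple (j m), s m) := by
      refine Prod.ext ?_ ?_
      · exact cs.inv_simple (j m)
      · exact inv_eq_of_mul_eq_one_left (hM.sq m)
    show mv cs h (x * (cs.simple (j m), s m)⁻¹).1 _ _ = φ (x * (cs.simple (j m), s m)⁻¹).2 k
    rw [h1]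
    exact key x m ih k

omit [Finite W] [Fintype B] [DecidableEq B] in
theorem map_fst : (Gr cs j s).map (MonoidHom.fst W Γ) = WJ cs (Set.range j) := by
  unfold Gr WJ
  rw [MonoidHom.map_closure, ← Set.range_comp, ← Set.range_comp]
  rfl

include hM in
omit [Finite W] [Fintype B] [DecidableEq B] in
theorem map_snd : (Gr cs j s).map (MonoidHom.snd W Γ) = ⊤ := by
  unfold Gr
  rw [MonoidHom.map_closure, ← Set.range_comp, ← hM.gen]
  rfl

omit [Finite W] [Fintype B] [DecidableEq B] in
theorem fst_mem {x : W × Γ} (hx : x ∈ Gr cs j s) : x.1 ∈ WJ cs (Set.range j) := by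
  rw [← map_fst cs (j := j) (s := s)]
  exact ⟨x, hx, rfl⟩

include h hM ha in
theorem fst_eq_one {x : W × Γ} (hx : x ∈ Gr cs j s) (h1 : x.2 = 1) : x.1 = 1 := by
  have hC : Cox cs := inferInstance
  by_contra hne
  obtain ⟨i, hi, hdes⟩ := hC.exists_descent (fst_mem cs hx) hne
  obtain ⟨k, rfl⟩ := hi
  have hlt : cs.length (x.1 * cs.simple (j k)) < cs.length x.1 := hdes
  have h2 : cs.length x.1 < cs.length (x.1 * cs.simple (j k)) := by
    rw [lt_iff_mv cs h, mv_of_mem cs h hM ha hx, h1, hM.one]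
    exact zero_le_one
  omega

include h hM ha in
omit [Finite W] in
theorem snd_eq_one {x : W × Γ} (hx : x ∈ Gr cs j s) (h1 : x.1 = 1) : x.2 = 1 := by
  refine hM.inj _ fun k => ?_
  rw [← mv_of_mem cs h hM ha hx, h1, mv_one]

include h hM ha in
/-- **the parabolic subgroup and its model** -/
theorem exists_equiv : ∃ e : WJ cs (Set.range j) ≃* Γ,
    (∀ k, ∀ hk : cs.simple (j k) ∈ WJ cs (Set.range j), e ⟨cs.simple (j k), hk⟩ = s k) ∧
    ∀ w : WJ cs (Set.range j), ∀ k,
      (cs.length (w : W) < cs.length ((w : W) * cs.simple (j k)) ↔ 0 ≤ φ (e w) k) ∧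
      (cs.length (w : W) < cs.length (cs.simple (j k) * (w : W)) ↔ 0 ≤ φ (e w)⁻¹ k) := by
  classical
  let f1 : Gr cs j s →* WJ cs (Set.range j) :=
    ((MonoidHom.fst W Γ).comp (Gr cs j s).subtype).codRestrict _ fun x => fst_mem cs x.2
  let f2 : Gr cs j s →* Γ := (MonoidHom.snd W Γ).comp (Gr cs j s).subtype
  have hf1 : Function.Bijective f1 := by
    constructor
    · rw [injective_iff_map_eq_one]
      rintro x hx
      have h1 : (x : W × Γ).1 = 1 := congrArg Subtype.val hx
      exact Subtype.ext (Prod.ext h1 (snd_eq_one cs h hM ha x.2 h1))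
    · rintro ⟨w, hw⟩
      rw [← map_fst cs (j := j) (s := s)] at hw
      obtain ⟨x, hx, hxw⟩ := hw
      exact ⟨⟨x, hx⟩, Subtype.ext hxw⟩
  have hf2 : Function.Bijective f2 := by
    constructor
    · rw [injective_iff_map_eq_one]
      rintro x hx
      exact Subtype.ext (Prod.ext (fst_eq_one cs h hM ha x.2 hx) hx)
    · intro g
      have hg : g ∈ (Gr cs j s).map (MonoidHom.snd W Γ) := by
        rw [map_snd cs hM]
        exact Subgroup.mem_top g
      obtain ⟨x, hx, hxg⟩ := hg
      exact ⟨⟨x, hx⟩, hxg⟩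
  let e : WJ cs (Set.range j) ≃* Γ := (MulEquiv.ofBijective f1 hf1).symm.trans (MulEquiv.ofBijective f2 hf2)
  have he : ∀ x : Gr cs j s, e (f1 x) = f2 x := by
    intro x
    show MulEquiv.ofBijective f2 hf2 ((MulEquiv.ofBijective f1 hf1).symm (f1 x)) = f2 x
    have : (MulEquiv.ofBijective f1 hf1).symm (f1 x) = x := (MulEquiv.ofBijective f1 hf1).symm_apply_apply x
    rw [this]
    rfl
  refine ⟨e, fun k hk => ?_, fun w k => ?_⟩
  · have h1 : (cs.simple (j k), s k) ∈ Gr cs j s := Subgroup.subset_closure ⟨k, rfl⟩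
    exact he ⟨_, h1⟩
  · obtain ⟨x, rfl⟩ := hf1.2 w
    rw [he]
    constructor
    · rw [lt_iff_mv cs h]
      show 0 ≤ mv cs h (x : W × Γ).1 (fun _ => 1) (j k) ↔ _
      rw [mv_of_mem cs h hM ha x.2]
      rfl
    · have h1 : cs.length ((f1 x : WJ cs (Set.range j)) : W) = cs.length ((x⁻¹ : Gr cs j s) : W × Γ).1 := by
        rw [← cs.length_inv]
        rfl
      have h2 : cs.length (cs.simple (j k) * ((f1 x : WJ cs (Set.range j)) : W)) =
          cs.length (((x⁻¹ : Gr cs j s) : W × Γ).1 * cs.simple (j k)) := by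
        rw [← cs.length_inv, mul_inv_rev, cs.inv_simple]
        rfl
      rw [h1, h2, lt_iff_mv cs h, mv_of_mem cs h hM ha (x⁻¹).2]
      rfl

include h hM ha in
/-- **the numbers** -/
theorem card_eq (K K' : Set κ) :
    Nat.card {w : W // w ∈ WJ cs (Set.range j) ∧
      (∀ i ∈ j '' K, cs.length w < cs.length (cs.simple i * w)) ∧
      ∀ i ∈ j '' K', cs.length w < cs.length (w * cs.simple i)} =
    Nat.card {g : Γ // (∀ k ∈ K, 0 ≤ φ g⁻¹ k) ∧ ∀ k ∈ K', 0 ≤ φ g k} := by
  obtain ⟨e, -, he⟩ := exists_equiv cs h hM ha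
  refine Nat.card_congr
    { toFun := fun w => ⟨e ⟨w.1, w.2.1⟩, fun k hk => ((he ⟨w.1, w.2.1⟩ k).2).1 (w.2.2.1 _ ⟨k, hk, rfl⟩),
        fun k hk => ((he ⟨w.1, w.2.1⟩ k).1).1 (w.2.2.2 _ ⟨k, hk, rfl⟩)⟩
      invFun := fun g => ⟨(e.symm g.1 : W), (e.symm g.1).2, ?_, ?_⟩
      left_inv := ?_
      right_inv := ?_ }
  · rintro _ ⟨k, hk, rfl⟩
    rw [(he (e.symm g.1) k).2, e.apply_symm_apply]
    exact g.2.1 k hk
  · rintro _ ⟨k, hk, rfl⟩
    rw [(he (e.symm g.1) k).1, e.apply_symm_apply]
    exact g.2.2 k hk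
  · intro w
    exact Subtype.ext (by
      show ((e.symm (e ⟨w.1, w.2.1⟩) : WJ cs (Set.range j)) : W) = w.1
      rw [e.symm_apply_apply])
  · intro g
    exact Subtype.ext (e.apply_symm_apply g.1)

end

/-! ### The models -/

/-- the Cartan matrix of type `A_r` -/
def cartA (r : ℕ) (k l : Fin r) : ℤ := if k = l then 2 else if (k : ℕ) + 1 = l ∨ (l : ℕ) + 1 = k then -1 else 0

/-- the generators of `S_{r+1}` -/
def sA (r : ℕ) (k : Fin r) : Equiv.Perm (Fin (r + 1)) := Equiv.swap k.castSucc k.succ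

/-- the numbers game of `S_{r+1}` -/
def phiA (r : ℕ) (g : Equiv.Perm (Fin (r + 1))) (k : Fin r) : ℤ := ((g k.succ : ℕ) : ℤ) - ((g k.castSucc : ℕ) : ℤ)

theorem model_A (r : ℕ) : Model (cartA r) (sA r) (phiA r) where
  one k := by
    simp [phiA]
  step g k l := by
    unfold phiA cartA sA
    rw [Equiv.Perm.mul_apply, Equiv.Perm.mul_apply]
    by_cases h1 : k = l
    · subst h1
      rw [Equiv.swap_apply_right, Equiv.swap_apply_left, if_pos rfl]
      ring
    rw [if_neg h1]
    have h1' : (k : ℕ) ≠ l := fun h => h1 (Fin.ext h)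
    by_cases h2 : (k : ℕ) + 1 = l
    · have e1 : l.castSucc = k.succ := Fin.ext (by simp [h2])
      have e2 : Equiv.swap k.castSucc k.succ l.succ = l.succ :=
        Equiv.swap_apply_of_ne_of_ne (fun h => by have := congrArg Fin.val h; simp at this; omega)
          (fun h => by have := congrArg Fin.val h; simp at this; omega)
      rw [if_pos (Or.inl h2), e2, e1, Equiv.swap_apply_right]
      ring
    by_cases h3 : (l : ℕ) + 1 = k
    · have e1 : l.succ = k.castSucc := Fin.ext (by simp [h3])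
      have e2 : Equiv.swap k.castSucc k.succ l.castSucc = l.castSucc :=
        Equiv.swap_apply_of_ne_of_ne (fun h => by have := congrArg Fin.val h; simp at this; omega)
          (fun h => by have := congrArg Fin.val h; simp at this; omega)
      rw [if_pos (Or.inr h3), e2, e1, Equiv.swap_apply_left]
      ring
    · have e1 : Equiv.swap k.castSucc k.succ l.succ = l.succ :=
        Equiv.swap_apply_of_ne_of_ne (fun h => by have := congrArg Fin.val h; simp at this; omega)
          (fun h => by have := congrArg Fin.val h; simp at this; omega)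
      have e2 : Equiv.swap k.castSucc k.succ l.castSucc = l.castSucc :=
        Equiv.swap_apply_of_ne_of_ne (fun h => by have := congrArg Fin.val h; simp at this; omega)
          (fun h => by have := congrArg Fin.val h; simp at this; omega)
      rw [if_neg (by tauto), e1, e2]
      ring
  sq k := Equiv.swap_mul_self _ _
  inj g hg := by
    have h1 : ∀ m : ℕ, ∀ hm : m < r + 1, ((g ⟨m, hm⟩ : ℕ) : ℤ) = (g 0 : ℕ) + m := by
      intro m
      induction m with
      | zero => intro hm; simp
      | succ m ih =>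
        intro hm
        have h2 := hg ⟨m, by omega⟩
        have h3 := ih (by omega)
        unfold phiA at h2
        simp only [Fin.succ_mk, Fin.castSucc_mk] at h2
        push_cast
        omega
    have h2 := h1 r (by omega)
    have h3 := (g ⟨r, by omega⟩).2
    have h4 : (g 0 : ℕ) = 0 := by omega
    refine Equiv.ext fun x => Fin.ext ?_
    have h5 := h1 x x.2
    rw [Equiv.Perm.one_apply]
    have h6 : (⟨(x : ℕ), x.2⟩ : Fin (r + 1)) = x := rfl
    rw [h6] at h5
    omega
  gen := by
    have h1 := Equiv.Perm.mclosure_swap_castSucc_succ r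
    rw [eq_top_iff]
    intro x _
    have h2 : x ∈ Submonoid.closure (Set.range fun i : Fin r ↦ Equiv.swap i.castSucc i.succ) := by
      rw [h1]
      exact Submonoid.mem_top x
    exact Submonoid.closure_le (S := (Subgroup.closure (Set.range (sA r))).toSubmonoid).2
      (by rintro _ ⟨i, rfl⟩; exact Subgroup.subset_closure ⟨i, rfl⟩) h2

/-- block sum -/
def cartSum {κ κ' : Type*} (a : κ → κ → ℤ) (a' : κ' → κ' → ℤ) : κ ⊕ κ' → κ ⊕ κ' → ℤ
  | Sum.inl k, Sum.inl l => a k l
  | Sum.inr k, Sum.inr l => a' k l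
  | _, _ => 0

/-- the generators of a product -/
def sSum {κ κ' Γ Γ' : Type*} [Group Γ] [Group Γ'] (s : κ → Γ) (s' : κ' → Γ') : κ ⊕ κ' → Γ × Γ'
  | Sum.inl k => (s k, 1)
  | Sum.inr k => (1, s' k)

/-- the numbers game of a product -/
def phiSum {κ κ' Γ Γ' : Type*} (φ : Γ → κ → ℤ) (φ' : Γ' → κ' → ℤ) (g : Γ × Γ') : κ ⊕ κ' → ℤ
  | Sum.inl k => φ g.1 k
  | Sum.inr k => φ' g.2 k

theorem Model.prod {κ κ' Γ Γ' : Type*} [Group Γ] [Group Γ'] {a : κ → κ → ℤ} {a' : κ' → κ' → ℤ} {s : κ → Γ}
    {s' : κ' → Γ'} {φ : Γ → κ → ℤ} {φ' : Γ' → κ' → ℤ} (h : Model a s φ) (h' : Model a' s' φ') :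
    Model (cartSum a a') (sSum s s') (phiSum φ φ') where
  one k := by
    cases k with
    | inl k => exact h.one k
    | inr k => exact h'.one k
  step g k l := by
    cases k with
    | inl k =>
      cases l with
      | inl l => exact h.step g.1 k l
      | inr l =>
        show φ' (g.2 * 1) l = φ' g.2 l - 0 * _
        rw [mul_one, zero_mul, sub_zero]
    | inr k =>
      cases l with
      | inl l =>
        show φ (g.1 * 1) l = φ g.1 l - 0 * _
        rw [mul_one, zero_mul, sub_zero]
      | inr l => exact h'.step g.2 k l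
  sq k := by
    cases k with
    | inl k => exact Prod.ext (h.sq k) (mul_one 1)
    | inr k => exact Prod.ext (mul_one 1) (h'.sq k)
  inj g hg := Prod.ext (h.inj _ fun k => hg (Sum.inl k)) (h'.inj _ fun k => hg (Sum.inr k))
  gen := by
    rw [eq_top_iff]
    rintro ⟨x, y⟩ -
    have h1 : ∀ x ∈ Subgroup.closure (Set.range s), ((x, 1) : Γ × Γ') ∈ Subgroup.closure (Set.range (sSum s s')) := by
      intro x hx
      have h2 : Subgroup.closure (Set.range s) ≤
          (Subgroup.closure (Set.range (sSum s s'))).comap (MonoidHom.inl Γ Γ') := by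
        rw [Subgroup.closure_le]
        rintro _ ⟨k, rfl⟩
        exact Subgroup.subset_closure ⟨Sum.inl k, rfl⟩
      exact h2 hx
    have h1' : ∀ y ∈ Subgroup.closure (Set.range s'), ((1, y) : Γ × Γ') ∈ Subgroup.closure (Set.range (sSum s s')) := by
      intro y hy
      have h2 : Subgroup.closure (Set.range s') ≤
          (Subgroup.closure (Set.range (sSum s s'))).comap (MonoidHom.inr Γ Γ') := by
        rw [Subgroup.closure_le]
        rintro _ ⟨k, rfl⟩
        exact Subgroup.subset_closure ⟨Sum.inr k, rfl⟩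
      exact h2 hy
    have h3 := mul_mem (h1 x (by rw [h.gen]; exact Subgroup.mem_top x)) (h1' y (by rw [h'.gen]; exact Subgroup.mem_top y))
    rwa [Prod.mk_mul_mk, mul_one, one_mul] at h3

end Cfsg.Agent.H644.OZ
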